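import Cfsg.Agent.Lib.CZ.Def
import Cfsg.Agent.Lib.OL5.AbG2

/-!
# Odd order groups acting on an abelian 2-group with a cyclic subgroup of index at most 16
-/

set_option autoImplicit false

namespace Cfsg.Lib.CZ

open Subgroup Cfsg.Lib.OL5
open scoped IsMulCommutative

variable {P : Type*} [Group P] [Finite P] [IsMulCommutative P] {I : Subgroup (MulAut P)}

/-- The norm map `ν d = ∏ k : K, k d` (`open scoped IsMulCommutative` for the `CommGroup` instance). -/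
theorem exists_norm (K : Subgroup (MulAut P)) : ∃ ν : P →* P, (∀ k ∈ K, ∀ d, k (ν d) = ν d) ∧
    (∀ k ∈ K, ∀ d, ν (k d) = ν d) ∧ ∀ d, (∀ k ∈ K, k d = d) → ν d = d ^ Nat.card K := by
  have := Fintype.ofFinite K
  refine ⟨⟨⟨fun d => ∏ k : K, k.1 d, by simp⟩, fun a b => by simp [Finset.prod_mul_distrib]⟩, fun k hk d => ?_,
    fun k hk d => ?_, fun d h => ?_⟩
  · exact (map_prod k _ _).trans (Fintype.prod_equiv (Equiv.mulLeft (⟨k, hk⟩ : K)) _ _ fun _ => rfl)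
  · exact Fintype.prod_equiv (Equiv.mulRight (⟨k, hk⟩ : K)) _ _ fun _ => rfl
  · exact (Finset.prod_congr rfl fun (k : K) _ => h k k.2).trans (by simp)

omit [Finite P] [IsMulCommutative P] in
theorem exists_res {K : Subgroup (MulAut P)} {W : Subgroup P} (h : ∀ k ∈ K, ∀ w ∈ W, k w ∈ W) :
    ∃ ρ : K →* MulAut W, ∀ k w, (ρ k w : P) = k.1 w :=
  ⟨.mk' (fun k => ⟨⟨fun w => ⟨k.1 w, h _ k.2 _ w.2⟩, fun w => ⟨k.1⁻¹ w, h _ (inv_mem k.2) _ w.2⟩,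
    fun w => Subtype.ext (by simp), fun w => Subtype.ext (by simp)⟩, fun a b => Subtype.ext (by simp)⟩) fun _ _ => rfl,
    fun _ _ => rfl⟩

/-- `#P ≤ 32`: `ab_cases`.  Otherwise take `x` of maximal order `2 ^ (n + 1)`, at least `orderOf z ≥ 4`, so `n ≥ 1`;
`l = x ^ 2 ^ n ≠ 1`, `l² = 1`, `K = I ⊓ stabilizer l`, `ν` from `exists_norm K`, `z' = ν x`, `z' ^ 2 ^ n = l`
(`#K` is odd).  `C = ν.range` is fixed by `K`, `W = ν.ker` is `K`-invariant without nontrivial fixed points,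
`#C * #W = #P`, `#C ≥ orderOf z' ≥ orderOf z`, so `#W ≤ 16`.  For `w ∈ W` with `w ^ 2 ^ n = 1` and `u = z' w`: `β ∈ I` fixing
`u` fixes `u ^ 2 ^ n = l`, so `β ∈ K` fixes `z'` and `w`.
(a) `W` has exponent dividing `2 ^ n`: `ab_cases` for `W` and the image of `K` in `MulAut W` gives `w`, `Y_W`; take
`Y = C ⊔ Y_W.map W.subtype` (`card_mul_le`).
(b) Otherwise `L = W ^ 2 ^ n ≠ 1` has exponent two, is `K`-invariant, so `#L ≥ 4` (for `#L = 2` its involution is fixed);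
`Ω = {w ∈ W | w ^ 2 ^ n = 1} ≥ L`, `#L * #Ω = #W ≤ 16`, so `#Ω = 4`.  Take `1 ≠ w ∈ L`; `β` fixes `Ω` (`le_fx`), so all
involutions of `W`, so `W` (for `v ∈ W`: `v² ∈ Ω` as `n = 1` or directly `(v⁻¹ β v) ^ 2 ^ n = 1`, `eq_of_fix`); `Y = ⊤`. -/
theorem ab2 (hP : IsPGroup 2 P) {z : P} (hz : (zpowers z).index ≤ 16) (ho : Odd (Nat.card I)) :
    (∃ u, ∃ Y : Subgroup P, Y.index ≤ 4 ∧ ∀ β ∈ I, β u = u → ∀ w ∈ Y, β w = w) ∨
    Nat.card P = 32 ∧ (∀ p : P, p * p = 1) ∧ ∃ u ≠ (1 : P),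
      Nat.card ↥(I ⊓ MulAction.stabilizer (MulAut P) u) = 5 ∧
      ∀ β ∈ I, β u = u → ∀ v, β v = v → v ∈ zpowers u ∨ β = 1 := by
  by_cases h32 : Nat.card P ≤ 32
  · exact ab_cases hP h32 ho
  left
  have hodd : ∀ β ∈ I, Odd (orderOf β) := fun β hβ => ho.of_dvd_nat (orderOf_dvd_natCard I hβ)
  have hc := (zpowers z).card_mul_index
  rw [Nat.card_zpowers] at hc
  have hc' : Nat.card P ≤ orderOf z * 16 := hc ▸ Nat.mul_le_mul_left _ hz
  obtain ⟨x, hx⟩ := Monoid.exists_orderOf_eq_exponent (Monoid.ExponentExists.of_finite (G := P))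
  obtain ⟨m, hm⟩ := hP.exists_orderOf_eq_pow x
  have ez : orderOf z ≤ 2 ^ m := Nat.le_of_dvd (by positivity) (hm ▸ hx ▸ Monoid.order_dvd_exponent z)
  obtain ⟨n, rfl⟩ : ∃ n, m = n + 1 + 1 := ⟨m - 2, by
    rcases m with _ | _ | m <;> omega⟩
  have ex : ∀ d : P, (d ^ 2 ^ (n + 1)) ^ 2 = 1 := fun d => by
    rw [← pow_mul, ← pow_succ, ← hm, hx, Monoid.pow_exponent_eq_one]
  have ex' : ∀ d : P, (d ^ 2 ^ (n + 1)) ^ 2 ^ (n + 1) = 1 := fun d => by rw [pow_succ' 2 n, pow_mul (_ ^ _), ← pow_succ', ex, one_pow]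
  have l1 : x ^ 2 ^ (n + 1) ≠ 1 := pow_ne_one_of_lt_orderOf (by positivity)
    (hm ▸ Nat.pow_lt_pow_right one_lt_two (Nat.lt_succ_self _))
  set K := I ⊓ MulAction.stabilizer (MulAut P) (x ^ 2 ^ (n + 1))
  have oK : Odd (Nat.card K) := ho.of_dvd_nat (card_dvd_of_le inf_le_left)
  obtain ⟨ν, h1, h2, h3⟩ := exists_norm K
  have e1 : ν x ^ 2 ^ (n + 1) = x ^ 2 ^ (n + 1) := by
    obtain ⟨j, hj⟩ := oK
    rw [← map_pow, h3 _ fun k hk => hk.2, hj, pow_succ _ (2 * j), pow_mul _ 2 j, ex, one_pow, one_mul]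
  have cC : 2 ^ (n + 1 + 1) ≤ Nat.card ν.range := by
    rw [← orderOf_eq_prime_pow (x := ν x) (e1 ▸ l1) (by rw [pow_succ, pow_mul, ex]), ← Nat.card_zpowers]
    exact card_le_of_le (zpowers_le.2 ⟨x, rfl⟩)
  have cW := ν.ker.card_mul_index
  rw [index_ker] at cW
  have c16 : Nat.card ν.ker ≤ 16 := by
    refine Nat.le_of_mul_le_mul_right ?_ (Nat.card_pos (α := ν.range))
    omega
  have hW : ∀ k ∈ K, ∀ w ∈ ν.ker, k w ∈ ν.ker := fun k hk w hw => (h2 k hk w).trans hw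
  have nf : ∀ w ∈ ν.ker, (∀ k ∈ K, k w = w) → w = 1 := fun w hw h => by
    obtain ⟨j, hj⟩ := hP.exists_orderOf_eq_pow w
    exact orderOf_eq_one_iff.1 (Nat.Coprime.eq_one_of_dvd (hj ▸ (Nat.coprime_two_left.2 oK).pow_left j)
      (orderOf_dvd_of_pow_eq_one ((h3 w h).symm.trans hw)))
  have key : ∀ w, w ^ 2 ^ (n + 1) = 1 → ∀ β ∈ I, β (ν x * w) = ν x * w → β ∈ K ∧ β w = w := fun w hw β hβ e => by
    have e' : β ((ν x * w) ^ 2 ^ (n + 1)) = (ν x * w) ^ 2 ^ (n + 1) := by rw [map_pow, e]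
    rw [mul_pow, e1, hw, mul_one] at e'
    have : β ∈ K := ⟨hβ, e'⟩
    exact ⟨this, by rwa [map_mul, h1 β this, mul_right_inj] at e⟩
  by_cases ha : ∀ w ∈ ν.ker, w ^ 2 ^ (n + 1) = 1
  · obtain ⟨ρ, hρ⟩ := exists_res hW
    obtain ⟨w, Y, i, hY⟩ := (ab_cases (I := ρ.range) (hP.to_subgroup ν.ker) (by omega)
      (oK.of_dvd_nat (card_range_dvd ρ))).resolve_right fun h => by omega
    refine ⟨ν x * w, ν.range ⊔ Y.map ν.ker.subtype, ?_, fun β hβ e => ?_⟩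
    · have k1 := card_mul_le (le_sup_left : ν.range ≤ ν.range ⊔ Y.map ν.ker.subtype) le_sup_right (disjoint_def.2 (by
        rintro _ ⟨d, rfl⟩ h
        exact nf _ (map_subtype_le Y h) fun k hk => h1 k hk d))
      have k2 := (ν.range ⊔ Y.map ν.ker.subtype).card_mul_index
      have k3 := Y.card_mul_index
      rw [card_map_of_injective (subtype_injective _)] at k1
      refine Nat.le_of_mul_le_mul_left ?_ (Nat.card_pos (α := ↥(ν.range ⊔ Y.map ν.ker.subtype)))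
      rw [k2, ← cW, ← k3, mul_right_comm, mul_comm (Nat.card Y)]
      exact Nat.mul_le_mul k1 i
    · obtain ⟨k1, k2⟩ := key w (ha w w.2) β hβ e
      refine sup_le (b := Y.map ν.ker.subtype) (c := Fx β) ?_ ?_
      · rintro _ ⟨d, rfl⟩
        exact h1 β k1 d
      · rintro _ ⟨y, hy, rfl⟩
        exact (hρ ⟨β, k1⟩ y).symm.trans
          (congrArg Subtype.val (hY (ρ ⟨β, k1⟩) ⟨_, rfl⟩ (Subtype.ext ((hρ _ _).trans k2)) y hy))
  push Not at ha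
  obtain ⟨v, hv, v1⟩ := ha
  let g : P →* P := powMonoidHom (2 ^ (n + 1))
  have hL : ∀ k ∈ K, ∀ p ∈ ν.ker.map g, k p ∈ ν.ker.map g := by
    rintro k hk _ ⟨p, hp, rfl⟩
    exact ⟨_, hW k hk p hp, (map_pow k _ _).symm⟩
  have k1 : 4 ≤ Nat.card (ν.ker.map g) := by
    obtain ⟨j, hj⟩ := IsPGroup.iff_card.1 (hP.to_subgroup (ν.ker.map g))
    have : ¬ Nat.card (ν.ker.map g) ≤ 2 := fun c => v1 (nf _ (pow_mem hv _) fun k hk =>
      le_fx hP (hodd k hk.1) bot_le (hL k hk) bot_le (by simpa using c) ⟨v, hv, rfl⟩)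
    rw [hj] at this ⊢
    rcases j with _ | _ | j <;> omega
  have k2 := Coprime.card_mul_relIndex (inf_le_right : g.ker ⊓ ν.ker ≤ ν.ker)
  rw [inf_relIndex_right, relIndex_ker] at k2
  have k3 : Nat.card ↥(g.ker ⊓ ν.ker) ≤ 4 := by
    have := Nat.mul_le_mul_left (Nat.card ↥(g.ker ⊓ ν.ker)) k1
    omega
  have k4 : 1 < Nat.card (zpowers (v ^ 2 ^ (n + 1))) := (one_lt_card_iff_ne_bot _).2 (zpowers_eq_bot.not.2 v1)
  refine ⟨ν x * v ^ 2 ^ (n + 1), ⊤, by simp, fun β hβ e p _ => ?_⟩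
  obtain ⟨k5, k6⟩ := key _ (ex' v) β hβ e
  have k7 : g.ker ⊓ ν.ker ≤ Fx β := le_fx hP (hodd β hβ) (zpowers_le.2 ⟨ex' v, pow_mem hv _⟩)
    (fun p hp => ⟨(map_pow β _ _).symm.trans ((congrArg β hp.1).trans (map_one β)), hW β k5 p hp.2⟩) (zpowers_le.2 k6)
    (by omega)
  have k8 : ∀ p, p⁻¹ * β p ∈ ν.ker := fun p => by simp [MonoidHom.mem_ker, h2 β k5]
  have k9 : ν.ker ≤ Fx β := fun p hp => eq_of_fix hP (hodd β hβ) (k7 ⟨by
    change (p⁻¹ * β p) ^ 2 ^ (n + 1) = 1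
    rw [mul_pow, ← map_pow, mem_fx.1 (k7 ⟨ex' p, pow_mem hp _⟩), inv_pow, inv_mul_cancel], k8 p⟩)
  exact eq_of_fix hP (hodd β hβ) (k9 (k8 p))

end Cfsg.Lib.CZ
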