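import Cfsg.Agent.Lib.CZ.Def

/-!
# The commutator form on `P / ⟨z⟩`
-/

set_option autoImplicit false

namespace Cfsg.Lib.CZ

open Subgroup
open scoped commutatorElement

variable {P A : Type*} [Group P] [Group A] {z : P} {φ : P →* A} {τ : MulAut P} {β γ : MulAut A} {B : A → A →* P}

/-- `B` is the commutator form. -/
structure Fm (z : P) (φ : P →* A) (β : MulAut A) (B : A → A →* P) : Prop where
  eq : ∀ a b, B (φ a) (φ b) = ⁅a, b⁆
  mem : ∀ u v, B u v ∈ zpowers z
  inv : ∀ u v, B u v = (B v u)⁻¹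
  self : ∀ u, B u u = 1
  map : ∀ u v, B (β u) (β v) = B u v

theorem Ind.exists_fm [IsMulCommutative A] (h : Ind z φ τ β) : ∃ B, Fm z φ β B := by
  have m : ∀ a b : P, ⁅a, b⁆ ∈ zpowers z := fun a b => h.ker.le (by
    rw [MonoidHom.mem_ker, map_commutatorElement, commutatorElement_eq_one_iff_mul_comm, mul_comm'])
  have c : ∀ a, ∀ c ∈ zpowers z, a * c = c * a := fun a c hc => mem_center_iff.1 (zpowers_le.2 h.cen hc) a
  choose s hs using h.surj
  let g : P → P →* P := fun a => .mk' (fun b => ⁅a, b⁆) fun b d => by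
    rw [show ⁅a, b * d⁆ = ⁅a, b⁆ * (b * ⁅a, d⁆ * b⁻¹) by simp only [commutatorElement_def]; group, c b _ (m _ _),
      mul_inv_cancel_right]
  let B : A → A →* P := fun u => φ.liftOfRightInverse s hs ⟨g (s u), fun b hb =>
    commutatorElement_eq_one_iff_mul_comm.2 (c _ _ (h.ker.le hb))⟩
  have e : ∀ a b, B (φ a) (φ b) = ⁅a, b⁆ := fun a b => by
    refine (φ.liftOfRightInverse_comp_apply s hs _ b).trans ?_
    have : s (φ a) * a⁻¹ ∈ zpowers z := h.ker.le (by simp [hs])
    change ⁅s (φ a), b⁆ = _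
    rw [← inv_mul_cancel_right (s (φ a)) a]
    generalize s (φ a) * a⁻¹ = d at this
    rw [show ⁅d * a, b⁆ = d * (⁅a, b⁆ * b) * d⁻¹ * b⁻¹ by simp only [commutatorElement_def]; group, ← c _ _ this]
    group
  refine ⟨B, e, fun u v => ?_, fun u v => ?_, fun u => ?_, fun u v => ?_⟩ <;> obtain ⟨a, rfl⟩ := h.surj u
  · obtain ⟨b, rfl⟩ := h.surj v
    exact e a b ▸ m a b
  · obtain ⟨b, rfl⟩ := h.surj v
    rw [e, e, commutatorElement_inv]
  · rw [e, commutatorElement_self]
  · obtain ⟨b, rfl⟩ := h.surj v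
    obtain ⟨k, hk⟩ := m a b
    rw [← h.map, ← h.map, e, e, ← map_commutatorElement, ← hk, map_zpow, h.fix]

namespace Fm
variable (h : Fm z φ β B) {u v : A}
include h

theorem symm (e : v ∈ (B u).ker) : u ∈ (B v).ker := by rw [MonoidHom.mem_ker, h.inv, inv_eq_one]; exact e

theorem zpow (hγ : γ ∈ zpowers β) (u v : A) : B (γ u) (γ v) = B u v := by
  let T : Subgroup (MulAut A) :=
    { carrier := {γ | ∀ u v, B (γ u) (γ v) = B u v}
      one_mem' := fun _ _ => rfl
      mul_mem' := fun a b u v => (a _ _).trans (b u v)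
      inv_mem' := fun {γ} a u v => by simpa using (a (γ⁻¹ u) (γ⁻¹ v)).symm }
  exact (zpowers_le.2 (show β ∈ T from h.map) hγ :) u v

theorem fix (e : β u = u) (v : A) : v⁻¹ * β v ∈ (B u).ker := by
  rw [MonoidHom.mem_ker, map_mul, map_inv, ← h.map u v, e, inv_mul_cancel]

theorem comm {a b : P} (e : φ b ∈ (B (φ a)).ker) : a * b = b * a :=
  commutatorElement_eq_one_iff_mul_comm.1 ((h.eq a b).symm.trans e)

end Fm

end Cfsg.Lib.CZ
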