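import Cfsg.Agent.Lib.CZ.Ab2
import Cfsg.Agent.Lib.CZ.Fm
import Cfsg.Agent.Lib.PGroup.AutGL

/-!
# The prime three
-/

set_option autoImplicit false
set_option linter.unusedSectionVars false

namespace Cfsg.Lib.CZ

open Subgroup Cfsg.Lib.OL5
open scoped IsMulCommutative

variable {P : Type*} [Group P] [Finite P]

/-- `A` is not cyclic (else `P` is abelian, `commutative_of_cyclic_center_quotient`), so it has order nine and
exponent three.  `f a b = a b a⁻¹ b⁻¹ ∈ ⟨z⟩` is central, multiplicative in both variables, depends only on the images in `A`,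
`f (τ a) (τ b) = f a b`.  Let `φ a = v`, `φ b ∉ ⟨v⟩`; `A = ⟨v, φ b⟩`, so `c = f a b ≠ 1`, `c³ = 1`.
`f a (b⁻¹ τ b) = 1`, so `φ b⁻¹ * β (φ b) ∈ ⟨v⟩` (an element `v^i (φ b)^j` with `c^j = 1`); so `β (φ b) = φ b * v^i`. -/
theorem free3 {A : Type*} [Group A] {z : P} {φ : P →* A} {τ : MulAut P} {β : MulAut A}
    (h : Ind z φ τ β) (hA : IsPGroup 3 A) (h9 : Nat.card A ≤ 9) (hn : ∃ a b : P, a * b ≠ b * a)
    {v : A} (hv : v ≠ 1) (e : β v = v) : β ^ 3 = 1 := by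
  have : Fact (Nat.Prime 3) := ⟨Nat.prime_three⟩
  have := Finite.of_surjective φ h.surj
  obtain ⟨a, b, n⟩ := hn
  have nc : ¬ IsCyclic A := fun _ => n ((φ.isMulCommutative_of_isCyclic_of_ker_le_center
    (h.ker.le.trans (zpowers_le.2 h.cen))).is_comm.comm a b)
  have c9 : Nat.card A = 3 ^ 2 := by
    obtain ⟨m, hm⟩ := IsPGroup.iff_card.1 hA
    have : m ≤ 2 := (Nat.pow_le_pow_iff_right (by norm_num)).1 (show 3 ^ m ≤ 3 ^ 2 from hm ▸ h9)
    have : ¬ m ≤ 1 := fun c => nc (isCyclic_of_card_dvd_prime (p := 3) (hm ▸ pow_dvd_pow 3 c))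
    rw [hm, show m = 2 by omega]
  have := IsPGroup.isMulCommutative_of_card_eq_prime_sq c9
  have sub : ∀ H : Subgroup A, H ≠ ⊥ → H ≠ ⊤ → Nat.card H = 3 := fun H h1 h2 => by
    obtain ⟨m, hm, e⟩ := (Nat.dvd_prime_pow Nat.prime_three).1 (c9 ▸ H.card_subgroup_dvd_card)
    interval_cases m
    exacts [absurd (card_eq_one.1 e) h1, e, absurd (eq_top_of_card_eq H (e.trans c9.symm)) h2]
  have c3 := sub (zpowers v) (zpowers_eq_bot.not.2 hv) fun e => nc (isCyclic_iff_exists_zpowers_eq_top.2 ⟨v, e⟩)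
  have key : ∀ H : Subgroup A, v ∈ H → H ≠ ⊤ → H ≤ zpowers v := fun H m n =>
    (eq_of_le_of_card_ge (zpowers_le.2 m) ((sub H (fun e => hv (mem_bot.1 (e.le m))) n).trans c3.symm).le).ge
  obtain ⟨B, hB⟩ := h.exists_fm
  have k1 : (B v).ker ≠ ⊤ := fun t => by
    obtain ⟨w, hw⟩ : ∃ w, w ∉ zpowers v := by
      by_contra! c
      exact nc (isCyclic_iff_exists_zpowers_eq_top.2 ⟨v, (eq_top_iff' _).2 c⟩)
    have top : ∀ u, w ∈ (B u).ker → ∀ y, y ∈ (B u).ker := fun u m y => by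
      have : (B u).ker = ⊤ := by_contra fun c => hw (key _ (hB.symm (t.ge (mem_top u))) c m)
      exact this.ge (mem_top y)
    exact n (hB.comm (top _ (hB.symm (top w (hB.self w) _)) _))
  refine MulEquiv.ext fun u => ?_
  have m := key _ (hB.self v) k1 (hB.fix e u)
  have m3 : (u⁻¹ * β u) ^ 3 = 1 := by
    rw [← c3]; exact congrArg Subtype.val (pow_card_eq_one' (x := (⟨_, m⟩ : zpowers v)))
  have f : β (u⁻¹ * β u) = u⁻¹ * β u := zpowers_le.2 (show v ∈ Fx β from e) m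
  have g : β u = u * (u⁻¹ * β u) := by simp
  generalize u⁻¹ * β u = c at m3 f g
  simp only [pow_succ, pow_zero, one_mul, MulAut.mul_apply, MulAut.one_apply, g, map_mul, f, mul_assoc] at m3 ⊢
  rw [m3, mul_one]

section
variable [IsMulCommutative P] {τ : MulAut P} {v : P}

omit [Finite P] in
theorem inv_vv (h : τ * τ = 1) (hv : v ∈ Vv τ) : τ v = v⁻¹ := by
  obtain ⟨p, rfl⟩ := hv
  rw [tau_apply, map_mul, map_inv, ← MulAut.mul_apply, h, mul_inv_rev, inv_inv, MulAut.one_apply]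

theorem eq_one3 {G : Type*} [Group G] {v : G} (h3 : v ^ 3 = 1) (h : v = v⁻¹) : v = 1 := by
  rwa [pow_three, eq_inv_iff_mul_eq_one.1 h, mul_one] at h3

theorem dvd_fx {q : ℕ} (hq : q.Prime) (o : orderOf τ = q) {H : Subgroup P} (hH : ∀ p ∈ H, τ p ∈ H) :
    q ∣ Nat.card H - Nat.card ↥(H ⊓ Fx τ) := by
  have := card_dvd_of_free (zpowers τ) ((H : Set P) \ (H ⊓ Fx τ : Subgroup P)) (fun g hg x hx => ?_) fun g hg x hx e => ?_
  · rwa [Nat.card_zpowers, o, Set.ncard_sdiff (SetLike.coe_subset_coe.2 inf_le_left), ← Nat.card_coe_set_eq,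
      ← Nat.card_coe_set_eq] at this
  · obtain ⟨k, rfl⟩ := (mem_powers_iff_mem_zpowers.2 hg :)
    refine ⟨?_, fun h => hx.2 ⟨hx.1, (τ ^ k).injective ?_⟩⟩
    · induction k with
      | zero => exact hx.1
      | succ k ih => exact (pow_succ' τ k ▸ hH _ (ih (pow_mem (mem_zpowers τ) k)) : (τ ^ (k + 1)) x ∈ H)
    · exact (congrArg (· x) (Commute.pow_self τ k).eq :).trans h.2
  · by_contra g1
    have : Fact (Nat.card (zpowers τ)).Prime := ⟨by rwa [Nat.card_zpowers, o]⟩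
    obtain ⟨k, hk⟩ := mem_zpowers_of_prime_card (p := Nat.card (zpowers τ)) rfl (g := (⟨g, hg⟩ : zpowers τ))
      (g' := ⟨τ, mem_zpowers τ⟩) fun c => g1 (congrArg Subtype.val c)
    exact hx.2 ⟨hx.1, ab_fix ⟨k, congrArg Subtype.val hk⟩ e⟩

theorem of_invol {I : Subgroup (MulAut P)} (h27 : Nat.card P = 27) (h3 : ∀ d : P, d ^ 3 = 1) (h : τ * τ = 1) (h1 : τ ≠ 1)
    (hf : Fx τ ≠ ⊥) (c : ∀ β ∈ I, β * τ = τ * β) :
    ∃ u, ∃ Y : Subgroup P, Y.index ≤ 3 ∧ ∀ β ∈ I, β u = u → ∀ w ∈ Y, β w = w := by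
  have : Fact (Nat.Prime 3) := ⟨Nat.prime_three⟩
  have d : Disjoint (Vv τ) (Fx τ) := disjoint_def.2 fun {p} h1 h2 => eq_one3 (h3 p) (h2.symm.trans (inv_vv h h1))
  obtain ⟨w, hw, w1⟩ := (bot_or_exists_ne_one _).resolve_left hf
  obtain ⟨v, hv, v1⟩ := (bot_or_exists_ne_one (Vv τ)).resolve_left fun e =>
    h1 (MulEquiv.ext fun p => (inv_mul_eq_one.1 (mem_bot.1 (e.le ⟨p, rfl⟩))).symm)
  refine ⟨v * w, zpowers v ⊔ zpowers w, ?_, fun β hβ e => ?_⟩
  · have k1 := card_mul_le (le_sup_left : _ ≤ zpowers v ⊔ zpowers w) le_sup_right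
      (d.mono (zpowers_le.2 hv) (zpowers_le.2 hw))
    have k2 := (zpowers v ⊔ zpowers w).card_mul_index
    rw [Nat.card_zpowers, Nat.card_zpowers, orderOf_eq_prime (h3 v) v1, orderOf_eq_prime (h3 w) w1] at k1
    have := Nat.mul_le_mul_right (zpowers v ⊔ zpowers w).index k1
    omega
  · have e1 : v⁻¹ * β v = w * (β w)⁻¹ := by
      rw [map_mul] at e
      rw [eq_mul_inv_iff_mul_eq, mul_assoc, e, inv_mul_cancel_left]
    have e2 : v⁻¹ * β v = 1 := disjoint_def.1 d (mul_mem (inv_mem hv) (map_mem_vv (ab_self (c β hβ)) hv))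
      (e1 ▸ mul_mem hw (inv_mem (map_mem_fx (ab_self (c β hβ)) hw)))
    exact sup_le (c := Fx β) (zpowers_le.2 (inv_mul_eq_one.1 e2).symm) (zpowers_le.2 (mul_inv_eq_one.1 (e1 ▸ e2)).symm)

theorem of_free {I : Subgroup (MulAut P)} (h27 : Nat.card P = 27) (h : ∀ β ∈ I, ∀ u, u ≠ 1 → β u = u → β = 1) :
    ∃ u, ∃ Y : Subgroup P, Y.index ≤ 3 ∧ ∀ β ∈ I, β u = u → ∀ w ∈ Y, β w = w := by
  have := Finite.one_lt_card_iff_nontrivial.1 (show 1 < Nat.card P by omega)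
  obtain ⟨u, hu⟩ := exists_ne (1 : P)
  exact ⟨u, ⊤, by simp, fun β hβ e w _ => by rw [h β hβ u hu e, MulAut.one_apply]⟩

end

variable [IsMulCommutative P] {I : Subgroup (MulAut P)} (hI : ¬ 3 ∣ Nat.card I)
include hI

/-- If `I` has a central involution `τ` with `Fx τ ≠ ⊥`: `P = Fx τ × Vv τ` (`v⁻¹ τ v` is inverted), both
`I`-invariant and nontrivial; `u = v w`, `Y = ⟨v⟩ ⊔ ⟨w⟩` of order nine.  Otherwise every central involution is the
inversion `ι`.  If `I ≤ ⟨ι⟩` take any `u ≠ 1`, `Y = ⊤`.  Else take `σ ∈ I \ ⟨ι⟩` central of order two modulo `⟨ι⟩`;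
`σ² = ι` is impossible (`⟨σ⟩` would act freely on 26 elements, `card_dvd_of_free`); `β σ β⁻¹ = σ ι` is impossible
(`β` would map `Fx σ` onto `Fx (σ ι) = Vv σ`, and 27 is not a square, `card_mul`).  So `σ` is a central involution. -/
theorem ab27_two (h27 : Nat.card P = 27) (h3 : ∀ d : P, d ^ 3 = 1) (h2 : IsPGroup 2 I) :
    ∃ u, ∃ Y : Subgroup P, Y.index ≤ 3 ∧ ∀ β ∈ I, β u = u → ∀ w ∈ Y, β w = w := by
  classical
  have := Fintype.ofFinite P
  let s : I →* ℤˣ := Equiv.Perm.sign.comp ((MulAut.toPerm P).comp I.subtype)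
  by_cases h0 : s.ker = ⊥
  · by_cases hf : ∀ β ∈ I, ∀ u, u ≠ 1 → β u = u → β = 1
    · exact of_free h27 hf
    push Not at hf
    obtain ⟨β, hβ, u, u1, e, β1⟩ := hf
    have i := (MonoidHom.ker_eq_bot_iff _).1 h0
    exact of_invol h27 h3 (congrArg Subtype.val (i (a₁ := ⟨β, hβ⟩ * ⟨β, hβ⟩) (a₂ := 1) (by rw [map_mul, map_one, Int.units_mul_self]))) β1
      (fun h => u1 (mem_bot.1 (h.le e))) fun δ hδ =>
        congrArg Subtype.val (i (a₁ := ⟨δ, hδ⟩ * ⟨β, hβ⟩) (a₂ := ⟨β, hβ⟩ * ⟨δ, hδ⟩) (by rw [map_mul, map_mul, mul_comm]))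
  obtain ⟨τ, h1, h4, o⟩ := PGroup.exists_mem_center_orderOf_eq h2 s.ker h0
  have t2 : τ ^ 2 = 1 := o ▸ pow_orderOf_eq_one τ
  refine of_invol (τ := τ.1) h27 h3 (congrArg Subtype.val ((sq τ).symm.trans t2))
    (fun e => by rw [show τ = 1 from Subtype.ext e, orderOf_one] at o; omega) (fun h => ?_)
    fun δ hδ => congrArg Subtype.val (mem_center_iff.1 h4 ⟨δ, hδ⟩)
  have e := Equiv.Perm.sign_of_pow_two_eq_one (σ := ((MulAut.toPerm P).comp I.subtype) τ) (by rw [← map_pow, t2, map_one])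
  have e1 : Fintype.card (Function.fixedPoints (((MulAut.toPerm P).comp I.subtype) τ)) = 1 := by
    rw [← Nat.card_eq_fintype_card]
    exact (congrArg (fun H : Subgroup P => Nat.card H) h).trans card_bot
  rw [e1, ← Nat.card_eq_fintype_card, h27] at e
  exact absurd (e.symm.trans h1) (by decide)

/-- An element `x` of prime order `q ≠ 3` acts freely on `Vv x \ 1` (`Vv x ⊓ Fx x = ⊥`), of size `2, 8, 26`; so
`q ∈ {2, 13}`, and `Fx x = ⊥` for `q = 13`.  If `13 ∤ #I`: `ab27_two`.  Else a Sylow 13-subgroup `Q` acts freely on 26 elements,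
`#Q = 13`, `#I = 13 * 2 ^ a ≤ #(MulAut P) ≤ 27 ^ 3` (three generators; or orbit-stabilizer), the number of Sylow 13-subgroups
is `2 ^ j ≡ 1 mod 13` with `j < 12`, so `Q = ⟨x⟩` is normal.  Then `I` acts freely (any `u ≠ 1`, `Y = ⊤`): if `1 ≠ β` fixes
`u`, a power `τ` of `β` of prime order is an involution; `τ x τ = x` makes `Fx τ` `x`-invariant, of order `≡ 1 mod 13`;
`τ x τ = x⁻¹`: `τ' = x τ x⁻¹`, `τ τ' = x⁻²` has no fixed points, so `Fx τ ⊓ Fx τ' = ⊥ = Vv τ ⊓ Vv τ'`, both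
`#(Fx τ) ^ 2 ≤ 27` and `#(Vv τ) ^ 2 ≤ 27` (`card_mul_le`), against `card_mul`. -/
theorem ab27 (h27 : Nat.card P = 27) (h3 : ∀ d : P, d ^ 3 = 1) :
    ∃ u, ∃ Y : Subgroup P, Y.index ≤ 3 ∧ ∀ β ∈ I, β u = u → ∀ w ∈ Y, β w = w := by
  have : Fact (Nat.Prime 3) := ⟨Nat.prime_three⟩
  have hq : Nat.Prime 13 := by norm_num
  have := Fact.mk hq
  have d : Nat.card I ∣ 13 * 2 ^ 5 := by
    obtain ⟨f, hf⟩ := PGroup.exists_aut_hom_GL (p := 3) (n := 3) mul_comm' h3 h27.le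
    have := I.card_subgroup_dvd_card.trans (card_dvd_of_injective f hf)
    rw [Matrix.card_GL_field, ZMod.card] at this
    exact (((Nat.Prime.coprime_iff_not_dvd Nat.prime_three).2 hI).symm.pow_right 3).dvd_of_dvd_mul_left
      (this.trans (by decide))
  by_cases h13 : 13 ∣ Nat.card I
  swap
  · obtain ⟨n, -, hn⟩ := (Nat.dvd_prime_pow Nat.prime_two).1
      (((Nat.Prime.coprime_iff_not_dvd hq).2 h13).symm.dvd_of_dvd_mul_left d)
    exact ab27_two hI h27 h3 (IsPGroup.of_card hn)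
  have sub : ∀ H : Subgroup P, Nat.card H = 1 ∨ Nat.card H = 3 ∨ Nat.card H = 9 ∨ Nat.card H = 27 := fun H => by
    obtain ⟨m, hm, e⟩ := (Nat.dvd_prime_pow Nat.prime_three (m := 3)).1 (h27 ▸ H.card_subgroup_dvd_card :)
    rw [e]
    interval_cases m <;> simp
  have top : ∀ {τ : MulAut P}, Nat.card (Fx τ) = 27 → τ = 1 := fun h =>
    MulEquiv.ext fun p => (eq_top_of_card_eq _ (h.trans h27.symm)).ge (mem_top p)
  have fr : ∀ {y : MulAut P}, orderOf y = 13 → Fx y = ⊥ := fun {y} o => by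
    have h1 := dvd_fx hq o (H := ⊤) fun _ _ => mem_top _
    have h2 := sub (Fx y)
    have h4 : Nat.card (Fx y) ≠ 27 := fun e => by rw [top e, orderOf_one] at o; omega
    rw [top_inf_eq, card_top, h27] at h1
    exact card_eq_one.1 (by omega)
  obtain ⟨x, hx, o⟩ := Core.exists_mem_orderOf_eq_prime hq h13
  have l := zpowers_le.2 hx
  have nx : ((zpowers x).subgroupOf I).Normal := by
    have c : Nat.card ((zpowers x).subgroupOf I) = 13 ^ 1 :=
      (Nat.card_congr (subgroupOfEquivOfLe l).toEquiv).trans ((Nat.card_zpowers x).trans o)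
    have b3 := Sylow.card_quotient_normalizer_modEq_card_quotient c
    change relIndex _ _ ≡ index _ [MOD 13] at b3
    generalize (zpowers x).subgroupOf I = H at c b3
    have b4 := relIndex_mul_index (le_normalizer (H := H))
    have b2 := H.card_mul_index
    rw [← b2, c] at d
    obtain ⟨a, ha, e1⟩ := (Nat.dvd_prime_pow Nat.prime_two).1 (Nat.dvd_of_mul_dvd_mul_left (by norm_num) d)
    obtain ⟨b, hb, e2⟩ := (Nat.dvd_prime_pow Nat.prime_two).1 (e1 ▸ Dvd.intro _ b4)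
    rw [e1, e2] at b3 b4
    refine normalizer_eq_top_iff.1 (index_eq_one.1 ?_)
    rw [Nat.ModEq] at b3
    interval_cases a <;> interval_cases b <;> omega
  refine of_free h27 fun β hβ u u1 e => by_contra fun β1 => ?_
  have hp := Nat.minFac_prime (orderOf_eq_one_iff.not.2 β1)
  obtain ⟨τ, hτ, o'⟩ := Core.exists_mem_orderOf_eq_prime (H := zpowers β) hp (Nat.card_zpowers β ▸ Nat.minFac_dvd _)
  have hu : u ∈ Fx τ := ab_fix hτ e
  replace hτ := zpowers_le.2 hβ hτ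
  have o2 : orderOf τ = 2 := by
    rcases (Nat.Prime.dvd_mul hp).1 (o' ▸ (orderOf_dvd_natCard I hτ).trans d) with h | h
    · exact absurd (mem_bot.1 ((fr (o'.trans ((Nat.prime_dvd_prime_iff_eq hp hq).1 h))).le hu)) u1
    · exact o'.trans ((Nat.prime_dvd_prime_iff_eq hp Nat.prime_two).1 (hp.dvd_of_dvd_pow h))
  have t2 : τ * τ = 1 := by rw [← sq, ← o2, pow_orderOf_eq_one]
  have c1 := card_mul τ
  have c2 : 1 < Nat.card (Fx τ) := (one_lt_card_iff_ne_bot _).2 fun h => u1 (mem_bot.1 (h.le hu))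
  have c3 : Nat.card (Fx τ) ≠ 27 := fun e => by rw [top e, orderOf_one] at o2; omega
  have c4 := sub (Fx τ)
  obtain ⟨H, c, k, hk⟩ : ∃ H : Subgroup P, Nat.card H = 9 ∧ ∃ k : ℤ, ∀ p ∈ H, τ p = p ^ k := by
    by_cases h : Nat.card (Fx τ) = 9
    · exact ⟨_, h, 1, fun p hp => hp.trans (zpow_one p).symm⟩
    · rw [show Nat.card (Fx τ) = 3 by omega] at c1
      exact ⟨Vv τ, by omega, -1, fun p hp => (inv_vv t2 hp).trans (zpow_neg_one p).symm⟩
  obtain ⟨p, ⟨h1, _, h2, rfl⟩, p1⟩ := (bot_or_exists_ne_one (H ⊓ H.map x.toMonoidHom)).resolve_left fun e => by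
    have := card_mul_le le_top le_top (disjoint_iff.2 e)
    rw [card_map_of_injective x.injective, c, card_top] at this
    omega
  rename_i p
  have m : x⁻¹ * (τ⁻¹ * x * τ⁻¹⁻¹) ∈ zpowers x := mul_mem (inv_mem (mem_zpowers x))
    (nx.conj_mem ⟨x, hx⟩ (mem_zpowers x) ⟨τ⁻¹, inv_mem hτ⟩)
  have cm : x * τ = τ * x := by
    rcases (Nat.dvd_prime hq).1 (o ▸ orderOf_dvd_of_mem_zpowers m) with h | h
    · rw [orderOf_eq_one_iff, inv_mul_eq_one, inv_inv, mul_assoc, eq_inv_mul_iff_mul_eq] at h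
      exact h.symm
    · refine absurd (mem_bot.1 ((fr h).le (show p ∈ Fx _ from ?_))) fun e => p1 (by simp [e])
      have : x (τ p) = τ (x p) := by rw [hk p h2, map_zpow]; exact (hk _ h1).symm
      simp [mem_fx, this]
  have := dvd_fx hq o (H := Fx τ) fun p => map_mem_fx (ab_self cm)
  rw [fr o, inf_bot_eq, card_bot] at this
  omega

/-- Exponent three: `#P ≤ 27`; `ab27`, or `Y = ⟨u⟩` with `u ≠ 1` (`u = 1` if `P` is trivial).  Otherwise the cubes form a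
nontrivial cyclic subgroup `⟨l⟩`, `l = x³`; `K = I ⊓ stabilizer l`, `z' = ν x` (`exists_norm K`), `z'³ = l ^ #K` generates
`⟨l⟩`; so every `d` is `z'^i * w` with `w³ = 1` and `orderOf z ≤ orderOf z'`.  If `⟨z'⟩ = ⊤` take `u = z'`, `Y = ⊤`.
Else take `w ∉ ⟨z'⟩`, `w³ = 1`, `u = z' w`, `Y = ⟨z'⟩ ⊔ ⟨w⟩`: `β` fixing `u` fixes `u³`, so `l`, so `z'` and `w`. -/
theorem ab3 (hP : IsPGroup 3 P) {z : P} (hz : (zpowers z).index ≤ 9)
    (h3 : ∀ d : P, d ^ 3 ∈ zpowers z) :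
    ∃ u, ∃ Y : Subgroup P, Y.index ≤ 3 ∧ ∀ β ∈ I, β u = u → ∀ w ∈ Y, β w = w := by
  have : Fact (Nat.Prime 3) := ⟨Nat.prime_three⟩
  have hc := (zpowers z).card_mul_index
  rw [Nat.card_zpowers] at hc
  have hc' : Nat.card P ≤ orderOf z * 9 := hc ▸ Nat.mul_le_mul_left _ hz
  by_cases e3 : ∀ d : P, d ^ 3 = 1
  · have := Nat.le_of_dvd three_pos (orderOf_dvd_of_pow_eq_one (e3 z))
    by_cases h27 : Nat.card P = 27
    · exact ab27 hI h27 e3
    rcases subsingleton_or_nontrivial P with h | h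
    · exact ⟨1, ⊤, by simp, fun _ _ _ _ _ => Subsingleton.elim _ _⟩
    obtain ⟨u, hu⟩ := exists_ne (1 : P)
    refine ⟨u, zpowers u, ?_, fun β _ e w hw => zpowers_le.2 (show u ∈ Fx β from e) hw⟩
    have k := (zpowers u).card_mul_index
    obtain ⟨m, hm⟩ := IsPGroup.iff_card.1 hP
    rw [Nat.card_zpowers, orderOf_eq_prime (e3 u) hu] at k
    have : m ≤ 3 := (Nat.pow_le_pow_iff_right (by norm_num)).1 (show 3 ^ m ≤ 3 ^ 3 by omega)
    interval_cases m <;> omega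
  push Not at e3
  let g : P →* P := powMonoidHom 3
  obtain ⟨n, hn⟩ := (le_zpowers_iff z g.range).1 (by rintro _ ⟨d, rfl⟩; exact h3 d)
  obtain ⟨x, hx⟩ := hn.ge (mem_zpowers _)
  replace hx : x ^ 3 = z ^ n := hx
  rw [← hx] at hn
  obtain ⟨ν, h1, -, h2⟩ := exists_norm (I ⊓ MulAction.stabilizer (MulAut P) (x ^ 3))
  have e1 : x ^ 3 ∈ zpowers (ν x ^ 3) := by
    obtain ⟨j, hj⟩ := hP.exists_orderOf_eq_pow (x ^ 3)
    rw [← map_pow, h2 _ fun k hk => hk.2, mem_zpowers_pow_iff, hj]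
    exact ((Nat.Prime.coprime_iff_not_dvd Nat.prime_three).2 fun h =>
      hI (h.trans (card_dvd_of_le inf_le_left))).symm.pow_right j
  have e2 : ∀ d, ∃ c ∈ zpowers (ν x), (c⁻¹ * d) ^ 3 = 1 := fun d => by
    obtain ⟨i, hi⟩ := zpowers_le.2 e1 (hn.le ⟨d, rfl⟩)
    refine ⟨ν x ^ i, ⟨i, rfl⟩, ?_⟩
    rw [mul_pow, inv_pow, inv_mul_eq_one, ← zpow_natCast, zpow_comm, zpow_natCast]
    exact hi
  by_cases ht : ∀ d, d ∈ zpowers (ν x)
  · exact ⟨ν x, ⊤, by simp, fun β _ e w _ => zpowers_le.2 (show ν x ∈ Fx β from e) (ht w)⟩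
  push Not at ht
  obtain ⟨d, hd⟩ := ht
  obtain ⟨c, hc1, w3⟩ := e2 d
  have hw : c⁻¹ * d ∉ zpowers (ν x) := fun h => hd ((mul_mem_cancel_left (inv_mem hc1)).1 h)
  generalize c⁻¹ * d = w at w3 hw
  have ow := orderOf_eq_prime w3 fun e => hw (e ▸ one_mem _)
  refine ⟨ν x * w, zpowers (ν x) ⊔ zpowers w, ?_, fun β hβ e => ?_⟩
  · have : Fact (Nat.card (zpowers w)).Prime := ⟨by rw [Nat.card_zpowers, ow]; exact Nat.prime_three⟩
    have k1 := card_mul_le (le_sup_left : _ ≤ zpowers (ν x) ⊔ zpowers w) le_sup_right (disjoint_def.2 fun {p} a b => by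
      by_contra p1
      obtain ⟨k, hk⟩ := mem_zpowers_of_prime_card (p := Nat.card (zpowers w)) rfl (g := (⟨p, b⟩ : zpowers w))
        (g' := ⟨w, mem_zpowers w⟩) fun c => p1 (congrArg Subtype.val c)
      replace hk : p ^ k = w := congrArg Subtype.val hk
      exact hw (hk ▸ zpow_mem a k))
    have k2 := (zpowers (ν x) ⊔ zpowers w).card_mul_index
    have k3 : orderOf z ≤ orderOf (ν x) := Nat.le_of_dvd (orderOf_pos _) (orderOf_dvd_of_pow_eq_one (by
      obtain ⟨c, hc1, c3⟩ := e2 z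
      obtain ⟨j, hj⟩ : 3 ∣ orderOf (ν x) := by
        obtain ⟨_ | j, hj⟩ := hP.exists_orderOf_eq_pow (ν x)
        · obtain ⟨y, hy⟩ := e3
          obtain ⟨c, hc1, c3⟩ := e2 y
          rw [orderOf_eq_one_iff.1 hj, zpowers_one_eq_bot, mem_bot] at hc1
          exact absurd (by simpa [hc1] using c3) hy
        · exact hj ▸ dvd_pow_self 3 j.succ_ne_zero
      rw [← mul_inv_cancel_left c z, mul_pow, orderOf_dvd_iff_pow_eq_one.1 (orderOf_dvd_of_mem_zpowers hc1), hj, pow_mul,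
        c3, one_pow, mul_one]))
    rw [Nat.card_zpowers, Nat.card_zpowers, ow] at k1
    refine Nat.le_of_mul_le_mul_left ?_ (Nat.card_pos (α := ↥(zpowers (ν x) ⊔ zpowers w)))
    omega
  · have e' : β ((ν x * w) ^ 3) = (ν x * w) ^ 3 := by rw [map_pow, e]
    rw [mul_pow, w3, mul_one] at e'
    have k := h1 β ⟨hβ, zpowers_le.2 (show _ ∈ Fx β from e') e1⟩ x
    rw [map_mul, k, mul_right_inj] at e
    exact sup_le (c := Fx β) (zpowers_le.2 k) (zpowers_le.2 e)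

end Cfsg.Lib.CZ
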