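import Cfsg.Agent.Lib.CZ.Def
import Cfsg.Agent.Lib.Modular.AbFrob

/-!
# Dual systems for the lattices of free inertial actions
-/

set_option autoImplicit false

namespace Cfsg.Lib.CZ

open Finset

variable {K I : Type*} [Fintype K] [Fintype I] {x : K → I → ℤ}

theorem sq_cases {a : ℤ} (h : a ≠ 0) : a ^ 2 = 1 ∨ 4 ≤ a ^ 2 ∧ 2 ≤ |a| := by
  rcases (Int.one_le_abs h).eq_or_lt with h | h
  · exact .inl (by rw [← sq_abs, ← h, one_pow])
  · exact .inr ⟨by rw [← sq_abs]; nlinarith, h⟩

theorem abs_le_card {a : K → ℤ} {n : ℕ} (h0 : ∀ k, a k ≠ 0) (hn : ∑ k, a k ^ 2 = n)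
    (h : n = 9 ∧ 4 ≤ Fintype.card K ∨ (n = 8 ∨ n = 16) ∧ 5 ≤ Fintype.card K) (k : K) :
    |a k| ≤ #{l | a l ^ 2 = 1} := by
  classical
  have h1 : ∑ l, (4 - (if a l ^ 2 = 1 then 3 else 0) - if l = k then 4 - a k ^ 2 else 0) ≤
      ∑ l, a l ^ 2 := sum_le_sum fun l _ => by
    have := sq_cases (h0 l)
    split_ifs <;> subst_vars <;> omega
  rw [sum_sub_distrib, sum_ite_eq'] at h1
  simp only [sum_sub_distrib, sum_const, card_univ, ← sum_filter, mem_univ, if_true,
    nsmul_eq_mul, hn] at h1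
  rw [← sq_abs (a k)] at h1
  by_contra! h2
  have h3 : 3 * |a k| ≤ |a k| ^ 2 + 2 := by
    rcases le_or_gt |a k| 1 with h | h <;> nlinarith
  omega

theorem eq_zero_of_sum {J : Type*} [Fintype J] {v : J → ℤ} (h : ∑ j, v j = 0)
    (h2 : ∑ j, v j ^ 2 < 2) (j : J) : v j = 0 := by
  have h1 := single_le_sum (fun j _ => sq_nonneg (v j)) (mem_univ j)
  have h3 : 2 ∣ ∑ j, (v j ^ 2 - v j) := dvd_sum fun i _ => by
    rw [sq, ← mul_sub_one]
    exact (Int.even_mul_pred_self _).two_dvd
  rw [sum_sub_distrib, h] at h3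
  exact pow_eq_zero_iff two_ne_zero |>.1 (by have := sq_nonneg (v j); omega)

theorem dual_single [Unique I] (h0 : ∀ k, x k default ≠ 0)
    (h : ∀ k, |x k default| ≤ #{l | x l default ^ 2 = 1}) : Dual x (∑ k, x k default ^ 2) := by
  classical
  cases isEmpty_or_nonempty K
  · exact dual_of (J := Empty) (μ := 1) Empty.elim one_pos (·.elim) (by simp)
      fun _ _ => ⟨1, 0, one_ne_zero, isEmptyElim⟩
  set a := fun k => x k default with ha
  simp only [show ∀ k, x k default = a k from fun _ => rfl] at h0 h ⊢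
  set U : Finset K := {l | a l ^ 2 = 1} with hU
  obtain ⟨m, hm⟩ := Nat.exists_eq_succ_of_ne_zero (n := #U) fun e => by
    have := Int.one_le_abs (h0 (Classical.arbitrary K))
    have := h (Classical.arbitrary K)
    omega
  let e := (U.equivFinOfCardEq hm).symm
  have he : ∀ k ∈ U, a k * a k = 1 := fun k hk => sq (a k) ▸ (mem_filter.1 hk).2
  choose S h1 h2 using fun k => U.exists_subset_card_eq (n := (a k).natAbs) (by rw [← Nat.cast_le (α := ℤ), Int.natCast_natAbs]; exact h k)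
  let y : Fin (m + 1) → K → ℤ := fun i k =>
    (if k = e (i + 1) then a k else 0) - if k = e i then a k else 0
  let z : {k // k ∉ U} → K → ℤ := fun k l =>
    (if l = k then 1 else 0) - if l ∈ S k then (a k).sign * a l else 0
  have hy : ∀ (c : K → ℤ) i, ∑ k, c k * y i k = c (e (i + 1)) * a (e (i + 1)) - c (e i) * a (e i) :=
    fun c i => by simp [y, mul_sub]
  have hz : ∀ (c : K → ℤ) k, ∑ l, c l * z k l = c k - (a k).sign * ∑ l ∈ S k, c l * a l :=
    fun c k => by simp [z, mul_sub, mul_sum, mul_left_comm]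
  have hS : ∀ k (b : ℤ), (a k).sign * ∑ l ∈ S k, b = b * a k := fun k b => by
    rw [sum_const, h2, nsmul_eq_mul, ← mul_assoc, Int.sign_mul_natAbs, mul_comm]
  refine dual_of (μ := 2) (Sum.elim y (Sum.elim z z)) two_pos ?_ ?_ fun c hc => ?_
  · intro j i
    obtain rfl := Subsingleton.elim i default
    simp only [mul_comm _ (x _ _)]
    have : ∀ k, ∑ l, a l * z k l = 0 := fun k => by
      rw [hz, sum_congr rfl fun l hl => he l (h1 k hl), hS, one_mul, sub_self]
    rcases j with i | k | k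
    exacts [(hy a i).trans (by rw [he _ (e _).2, he _ (e _).2, sub_self]), this k, this k]
  · have h3 : ∑ i, ∑ k, y i k ^ 2 ≤ ∑ _i : Fin (m + 1), 2 := sum_le_sum fun i _ => by
      have h3 := he _ (e i).2
      have h4 := he _ (e (i + 1)).2
      simp only [sq, hy, y, if_true]
      split_ifs with h5 h6 h6 <;> first | exact absurd h5.symm h6 | exact absurd h6.symm h5 | nlinarith
    have h4 : ∑ k, ∑ l, z k l ^ 2 ≤ ∑ k : {k // k ∉ U}, a k ^ 2 := sum_le_sum fun k _ => by
      have h4 : k.1 ∉ S k := mt (h1 k ·) k.2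
      have h5 := (sq_cases (h0 k)).resolve_left fun e => k.2 (mem_filter.2 ⟨mem_univ _, e⟩)
      simp only [sq, hz]
      rw [sum_congr rfl (g := fun _ => -(a k).sign) fun l hl => by
        simp [z, hl, ne_of_mem_of_not_mem hl h4, mul_assoc, he l (h1 k hl)], hS, neg_mul,
        Int.sign_mul_self_eq_abs, ← abs_mul_abs_self]
      simp only [z, h4, if_true, if_false]
      nlinarith
    rw [← sum_subtype Uᶜ (by simp) fun k => a k ^ 2] at h4
    rw [← sum_add_sum_compl U fun k => a k ^ 2, sum_congr rfl fun k hk => (sq _).trans (he k hk)]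
    simp only [Fintype.sum_sum_type, Sum.elim_inl, Sum.elim_inr, sum_const, hm, card_univ,
      Fintype.card_fin, nsmul_eq_mul] at h3 ⊢
    omega
  · simp only [Fintype.sum_sum_type, Sum.elim_inl, Sum.elim_inr, hy, hz] at hc
    have h3 := sum_nonneg fun (k : {k // k ∉ U}) (_ : k ∈ univ) =>
      sq_nonneg (c k - (a k).sign * ∑ l ∈ S k, c l * a l)
    have h4 := sum_nonneg fun (i : Fin (m + 1)) (_ : i ∈ univ) =>
      sq_nonneg (c (e (i + 1)) * a (e (i + 1)) - c (e i) * a (e i))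
    have h5 := eq_zero_of_sum (v := fun i => c (e (i + 1)) * a (e (i + 1)) - c (e i) * a (e i)) (by
      rw [sum_sub_distrib, sub_eq_zero]
      exact Equiv.sum_comp (Equiv.addRight 1) fun i => c (e i) * a (e i))
      ((le_add_of_nonneg_right (add_nonneg h3 h3)).trans_lt hc)
    have h6 : ∀ k ∈ U, c k * a k = c (e 0) * a (e 0) := fun k hk => by
      obtain ⟨i, hi⟩ := e.surjective ⟨k, hk⟩
      obtain rfl : e i = k := congrArg Subtype.val hi
      clear hi hk
      induction i using Fin.induction with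
      | zero => rfl
      | succ i ih => rw [← ih, ← Fin.coeSucc_eq_succ, sub_eq_zero.1 (h5 _)]
    refine ⟨1, fun _ => c (e 0) * a (e 0), one_ne_zero, fun k => ?_⟩
    rw [Fintype.sum_unique, one_mul]
    by_cases hk : k ∈ U
    · rw [← h6 k hk, mul_assoc, he k hk, mul_one]
    have h7 := (sum_eq_zero_iff_of_nonneg fun _ _ => sq_nonneg _).1 (le_antisymm (by omega) h3)
      ⟨k, hk⟩ (mem_univ _)
    rwa [sum_congr rfl fun l hl => h6 l (h1 k hl), hS, sq_eq_zero_iff, sub_eq_zero] at h7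

theorem dual_star [DecidableEq I] [DecidableEq K] [Nonempty I] {δ c n : ℤ} {X : I → K}
    (hδ : δ = 1 ∨ δ = -1) (hX : Function.Injective X)
    (h1 : ∀ i j, x (X j) i = c - if i = j then δ else 0)
    (h2 : ∀ k ∉ Set.range X, ∀ i j, x k i = x k j) (h3 : ∀ k ∉ Set.range X, ∀ i, x k i ^ 2 = 1)
    (h4 : Fintype.card I < Fintype.card K)
    (h5 : 2 * ((Fintype.card K : ℤ) - Fintype.card I - 1) + Fintype.card I +
      (Fintype.card I * c - δ) ^ 2 ≤ n) : Dual x n := by
  obtain ⟨i₀⟩ := ‹Nonempty I›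
  set R := univ.map ⟨X, hX⟩ with hR
  have mR : ∀ k, k ∈ R ↔ k ∈ Set.range X := by simp [hR]
  have cR : #R = Fintype.card I := card_map _
  obtain ⟨u, -, hu⟩ := exists_mem_notMem_of_card_lt_card (s := R) (t := univ) (cR ▸ h4)
  simp only [← mR] at h2 h3
  set a := fun k => x k i₀ with ha
  have he : ∀ k ∉ R, ∀ i, x k i * a k = 1 := fun k hk i => by rw [← h3 k hk i, h2 k hk i i₀, sq]
  have he' : ∀ k ∉ R, a k * a k = 1 := (he · · i₀)
  set w := Fintype.card I * c - δ with hw
  let y : (Rᶜ.erase u : Finset K) → K → ℤ := fun k l =>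
    (if l = k then a l else 0) - if l = u then a l else 0
  let z : Unit → K → ℤ := fun _ l => (if l ∈ R then 1 else 0) - if l = u then w * a l else 0
  have hy : ∀ (c : K → ℤ) k, ∑ l, c l * y k l = c k * a k - c u * a u := fun c k => by
    simp [y, mul_sub]
  have hz : ∀ (c : K → ℤ) t, ∑ l, c l * z t l = ∑ i, c (X i) - w * (c u * a u) := fun c t => by
    simp only [z, mul_sub, sum_sub_distrib, mul_ite, mul_one, mul_zero, sum_ite_mem, univ_inter,
      sum_ite_eq', mem_univ, if_true, hR, sum_map, mul_left_comm, Function.Embedding.coeFn_mk]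
  have hδ' : δ * δ = 1 := by rcases hδ with rfl | rfl <;> rfl
  refine dual_of (μ := 1) (Sum.elim y z) one_pos ?_ ?_ fun c' hc => ?_
  · rintro (k | t) i <;> simp only [mul_comm _ (x _ _), Sum.elim_inl, Sum.elim_inr]
    · rw [hy (x · i), he u hu, he k (mem_compl.1 (mem_of_mem_erase k.2)), sub_self]
    · simp [hz (x · i), he u hu, h1, hw]
  · have h6 : ∑ k, ∑ l, y k l ^ 2 = ∑ _k : (Rᶜ.erase u : Finset K), 2 := sum_congr rfl fun k _ => by
      have := ne_of_mem_erase k.2
      simp only [sq, hy]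
      simp [y, this, this.symm, he' u hu, he' k (mem_compl.1 (mem_of_mem_erase k.2))]
    have h7 : ∑ l, z () l ^ 2 = Fintype.card I + w ^ 2 := by
      have : ∀ i, X i ≠ u := fun i e => hu ((mR u).2 ⟨i, e⟩)
      simp only [sq, hz _ ()]
      simp [z, this, mR, mul_assoc, he' u hu]
    rw [Fintype.sum_sum_type, Fintype.sum_unique (ι := Unit)]
    simp only [Sum.elim_inl, Sum.elim_inr, h6, h7, sum_const,
      card_univ, Fintype.card_coe, card_erase_of_mem (mem_compl.2 hu), card_compl, cR, nsmul_eq_mul]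
    omega
  · have h6 := fun j => sq_eq_zero_iff.1 ((sum_eq_zero_iff_of_nonneg fun _ _ => sq_nonneg _).1
      (le_antisymm (Int.lt_add_one_iff.1 hc) (sum_nonneg fun _ _ => sq_nonneg _)) j (mem_univ j))
    have h7 := sub_eq_zero.1 ((hz c' ()).symm.trans (h6 (.inr ())))
    refine ⟨1, fun j => δ * (c' u * a u * c - c' (X j)), one_ne_zero, fun k => ?_⟩
    have h8 : ∑ j, δ * (c' u * a u * c - c' (X j)) = c' u * a u := by
      rw [← mul_sum, sum_sub_distrib, h7, sum_const, card_univ, nsmul_eq_mul, hw]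
      linear_combination c' u * a u * hδ'
    by_cases hk : k ∈ R
    · obtain ⟨j, rfl⟩ := (mR k).1 hk
      simp only [h1, mul_sub _ c, sum_sub_distrib, ← sum_mul, h8, mul_ite, mul_zero, sum_ite_eq',
        mem_univ, if_true]
      linear_combination (c' u * a u * c - c' (X j)) * hδ'
    have h9 : c' k * a k = c' u * a u := by
      rcases eq_or_ne k u with rfl | h9
      exacts [rfl, sub_eq_zero.1 ((hy c' ⟨k, mem_erase.2 ⟨h9, mem_compl.2 hk⟩⟩).symm.trans
        (h6 (.inl _)))]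
    rw [sum_congr rfl fun i _ => by rw [h2 k hk i i₀], ← sum_mul, h8, ← h9, mul_assoc,
      mul_comm (a k), he k hk, mul_comm]

theorem dual_of_free [DecidableEq I] {e n : ℕ} (hn : Fintype.card I * e + 1 = n)
    (hG : ∀ i j, ∑ k, x k i * x k j = e + if i = j then 1 else 0) (h0 : ∀ k, ∃ i, x k i ≠ 0)
    {d : K → ℤ} (hd : ∀ k, 0 < d k) (hx : ∀ i, ∑ k, x k i * d k = 0)
    (hk : Fintype.card K ≤ e + Fintype.card I)
    (h : n = 9 ∧ 3 + Fintype.card I ≤ Fintype.card K ∨
      (n = 8 ∨ n = 16) ∧ 4 + Fintype.card I ≤ Fintype.card K) : Dual x n := by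
  classical
  have hsq : ∀ i, ∑ k, x k i ^ 2 = e + 1 := fun i => by simpa only [sq, if_true] using hG i i
  have h1 : Fintype.card I = 1 ∨ Fintype.card I = 2 ∧ e = 4 ∧ n = 9 ∨
      Fintype.card I = 3 ∧ e = 5 ∧ n = 16 := by
    generalize Fintype.card I = m at *
    have : m ≤ 5 := by nlinarith [show 3 ≤ e by omega, show n ≤ 16 by omega]
    interval_cases m <;> omega
  rcases h1 with h1 | h1
  · have := (Fintype.card_eq_one_iff_nonempty_unique.1 h1).some
    have h2 : ∑ k, x k default ^ 2 = n := by rw [hsq, ← hn, h1]; simp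
    have h3 : ∀ k, x k default ≠ 0 := fun k => (h0 k).elim fun j hj => Subsingleton.elim j default ▸ hj
    exact h2 ▸ dual_single h3 (abs_le_card h3 h2 (by omega))
  have : Nontrivial I := Fintype.one_lt_card_iff_nontrivial.1 (by omega)
  obtain ⟨δ, c, X, hδ, hX, h2, h3, h4⟩ := Modular.exists_exc_int_norm (x := fun i k => x k i) hd hG hx
  have key : ∀ i, ∀ k ∉ Set.range X, (c - δ) ^ 2 + (Fintype.card I - 1) * c ^ 2 +
      (Fintype.card K - Fintype.card I - 1) + x k i ^ 2 ≤ e + 1 := fun i k hk => by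
    have h5 := card_nsmul_le_sum ((univ.map ⟨X, hX⟩)ᶜ.erase k) (fun l => x l i ^ 2) 1 fun l hl => by
      have h5 : l ∉ Set.range X := by simpa using mem_of_mem_erase hl
      have := sq_cases ((h0 l).elim fun j hj => (h3 l h5 i j).symm ▸ hj : x l i ≠ 0)
      omega
    have h6 : k ∈ (univ.map ⟨X, hX⟩)ᶜ := by simpa using hk
    rw [← hsq i, ← sum_add_sum_compl (univ.map ⟨X, hX⟩), ← add_sum_erase _ _ h6, sum_map,
      ← add_sum_erase _ _ (mem_univ i), sum_congr rfl (g := fun _ => c ^ 2) fun j hj => by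
        simp [h2, (ne_of_mem_erase hj).symm]]
    simp only [Function.Embedding.coeFn_mk, h2, if_true, sum_const, card_erase_of_mem, h6, mem_univ,
      card_compl, card_map, card_univ, nsmul_eq_mul] at h5 ⊢
    rw [Nat.cast_pred (by omega)]
    omega
  obtain ⟨k, -, h5⟩ := exists_mem_notMem_of_card_lt_card (s := univ.map ⟨X, hX⟩) (t := univ)
    (by rw [card_map, card_univ, card_univ]; omega)
  replace h5 : k ∉ Set.range X := by simpa using h5
  have h6 : ∀ i, ∀ k ∉ Set.range X, x k i ^ 2 = 1 ∨ 4 ≤ x k i ^ 2 := fun i k hk =>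
    (sq_cases ((h0 k).elim fun j hj => (h3 k hk i j).symm ▸ hj)).imp_right And.left
  have h7 := key (Classical.arbitrary I) k h5
  have h8 := h6 (Classical.arbitrary I) k h5
  have h9 : c = 0 ∨ c = δ := by
    by_contra! h9
    have := sq_cases h9.1
    have := sq_cases (sub_ne_zero.2 h9.2)
    have : (c - δ) ^ 2 = 1 → c ^ 2 ≠ 1 := by rcases hδ with rfl | rfl <;> intro _ _ <;> nlinarith
    rcases h1 with ⟨h1, rfl, rfl⟩ | ⟨h1, rfl, rfl⟩ <;> rw [h1] at h7 h <;> omega
  refine dual_star hδ hX h2 h3 (fun k hk i => ?_) (by omega) ?_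
  · have := key i k hk
    have := h6 i k hk
    rcases h1 with ⟨h1, rfl, rfl⟩ | ⟨h1, rfl, rfl⟩ <;> rw [h1] at * <;>
      rcases hδ with rfl | rfl <;> rcases h9 with rfl | rfl <;> omega
  · rcases h1 with ⟨h1, rfl, rfl⟩ | ⟨h1, rfl, rfl⟩ <;> rw [h1] at * <;>
      rcases hδ with rfl | rfl <;> rcases h9 with rfl | rfl <;> omega

end Cfsg.Lib.CZ
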