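import Cfsg.Agent.Lib.CZ.Def

/-!
# The dual system for `C₃ × C₃` acting on `2⁴`
-/

set_option autoImplicit false

namespace Cfsg.Lib.CZ

open Finset

variable {K : Type*} [Fintype K] {A B : K → K → ℤ} {d : K → ℤ}

theorem sq_sub_nonneg (t : ℤ) : 0 ≤ t ^ 2 - t := by
  rcases le_or_gt t 0 with h | h <;> nlinarith

theorem two_dvd_sum_sq_sub {J : Type*} (s : Finset J) (v : J → ℤ) : 2 ∣ ∑ j ∈ s, (v j ^ 2 - v j) :=
  dvd_sum fun j _ => by
    have := (Int.even_mul_pred_self (v j)).two_dvd
    rwa [show v j * (v j - 1) = v j ^ 2 - v j by ring] at this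

theorem two_le_sq_sum {J : Type*} [Fintype J] {v : J → ℤ} (h0 : ∑ j, v j = 0) {i : J}
    (hi : v i ≠ 0) : 2 ≤ ∑ j, v j ^ 2 := by
  have h1 := two_dvd_sum_sq_sub univ v
  rw [sum_sub_distrib, h0, sub_zero] at h1
  have h2 : v i ^ 2 ≤ ∑ j, v j ^ 2 := single_le_sum (fun j _ => sq_nonneg (v j)) (mem_univ i)
  have h3 : 0 < v i ^ 2 := by positivity
  omega

theorem zero_or_one {t : ℤ} (h : t ^ 2 - t = 0) : t = 0 ∨ t = 1 := by
  have : t * (t - 1) = 0 := by linarith
  rcases mul_eq_zero.1 this with h | h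
  · exact .inl h
  · exact .inr (by linarith)

theorem Dual.of_sign {I : Type*} [Fintype I] {x : K → I → ℤ} {n : ℤ} {s : K → ℤ} {t : I → ℤ}
    (hs : ∀ k, s k * s k = 1) (ht : ∀ i, t i * t i = 1)
    (h : Dual (fun k i => s k * t i * x k i) n) : Dual x n := by
  obtain ⟨N, y, μ, h0, h1, h2, h3⟩ := h
  refine ⟨N, fun j k => s k * y j k, μ, h0, fun j i => ?_, ?_, fun c hc => ?_⟩
  · have := congrArg (t i * ·) (h1 j i)
    simp only [mul_sum, mul_zero] at this
    rw [← this]
    exact sum_congr rfl fun k _ => by linear_combination (-(s k * y j k * x k i)) * ht i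
  · refine le_of_eq_of_le (sum_congr rfl fun j _ => sum_congr rfl fun k _ => ?_) h2
    linear_combination (y j k ^ 2) * hs k
  · obtain ⟨m, a, hm, ha⟩ := h3 (fun k => s k * c k) (by
      refine lt_of_eq_of_lt (sum_congr rfl fun j _ => ?_) hc
      congr 1
      exact sum_congr rfl fun k _ => by ring)
    refine ⟨m, fun i => t i * a i, hm, fun k => ?_⟩
    have := congrArg (s k * ·) (ha k)
    simp only [mul_sum] at this
    rw [show m * c k = s k * (m * (s k * c k)) by linear_combination (-(m * c k)) * hs k, this]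
    exact sum_congr rfl fun i _ => by linear_combination (a i * t i * x k i) * hs k

variable (A B d) in
/-- Two integral symmetric matrices, four times commuting projections of rank four, whose product has
rank one. -/
structure Nine : Prop where
  sA : ∀ k l, A k l = A l k
  sB : ∀ k l, B k l = B l k
  AA : ∀ k l, ∑ m, A k m * A m l = 4 * A k l
  BB : ∀ k l, ∑ m, B k m * B m l = 4 * B k l
  AB : ∀ k l, ∑ m, A k m * B m l = d k * d l
  ne : ∀ k, d k ≠ 0
  tA : ∑ k, A k k = 16
  tB : ∑ k, B k k = 16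

namespace Nine

variable (h : Nine A B d)
include h

/-- Transpose `AB`. -/
theorem symm : Nine B A d := by
  refine ⟨h.sB, h.sA, h.BB, h.AA, fun k l => ?_, h.ne, h.tB, h.tA⟩
  rw [mul_comm (d k), ← h.AB]
  exact sum_congr rfl fun m _ => by rw [h.sB k m, h.sA m l, mul_comm]

/-- `A (A B) = 4 A B`. -/
theorem Ad (k : K) : ∑ l, A k l * d l = 4 * d k := by
  refine mul_right_cancel₀ (h.ne k) ?_
  calc (∑ l, A k l * d l) * d k = ∑ l, ∑ m, A k l * A l m * B m k := by
        rw [sum_mul]
        refine sum_congr rfl fun l _ => ?_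
        rw [mul_assoc, ← h.AB, mul_sum]
        exact sum_congr rfl fun m _ => by ring
    _ = ∑ m, 4 * (A k m * B m k) := by
        rw [sum_comm]
        exact sum_congr rfl fun m _ => by rw [← sum_mul, h.AA, mul_assoc]
    _ = 4 * d k * d k := by rw [← mul_sum, h.AB, mul_assoc]

/-- `(A B) d = 16 d` by `Ad` for `A` and `B`; `K` is not empty by `tA`. -/
theorem dd : ∑ k, d k ^ 2 = 16 := by
  obtain ⟨k, -⟩ : ∃ k, A k k ≠ 0 := by
    by_contra! H
    have := h.tA
    simp [H] at this
  refine mul_left_cancel₀ (h.ne k) ?_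
  calc d k * ∑ l, d l ^ 2 = ∑ l, ∑ m, A k m * (B m l * d l) := by
        rw [mul_sum]
        refine sum_congr rfl fun l _ => ?_
        rw [sq, ← mul_assoc, ← h.AB, sum_mul]
        exact sum_congr rfl fun m _ => by ring
    _ = ∑ m, 4 * (A k m * d m) := by
        rw [sum_comm]
        exact sum_congr rfl fun m _ => by rw [← mul_sum, h.symm.Ad]; ring
    _ = d k * 16 := by rw [← mul_sum, h.Ad]; ring

theorem row_sq (k : K) : ∑ l, A k l ^ 2 = 4 * A k k := by
  rw [← h.AA]
  exact sum_congr rfl fun l _ => by rw [h.sA l k, sq]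

/-- `4 A k k = ∑ l, A k l ^ 2`, and the row is not zero by `Ad`. -/
theorem one_le (k : K) : 1 ≤ A k k := by
  by_contra! H
  have h1 : ∑ l, A k l ^ 2 = 0 :=
    le_antisymm (by rw [h.row_sq]; omega) (sum_nonneg fun l _ => sq_nonneg _)
  rw [sum_eq_zero_iff_of_nonneg fun l _ => sq_nonneg _] at h1
  have h2 := h.Ad k
  rw [sum_eq_zero fun l _ => by rw [pow_eq_zero_iff two_ne_zero |>.1 (h1 l (mem_univ l)), zero_mul]]
    at h2
  exact h.ne k (by omega)

/-- Change of signs. -/
theorem sign {s : K → ℤ} (hs : ∀ k, s k * s k = 1) :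
    Nine (fun k l => s k * s l * A k l) (fun k l => s k * s l * B k l) fun k => s k * d k := by
  refine ⟨fun k l => by rw [h.sA k l, mul_comm (s k)], fun k l => by rw [h.sB k l, mul_comm (s k)],
    fun k l => ?_, fun k l => ?_, fun k l => ?_, fun k => mul_ne_zero (fun e => ?_) (h.ne k),
    ?_, ?_⟩
  · rw [show 4 * (s k * s l * A k l) = s k * s l * (4 * A k l) by ring, ← h.AA, mul_sum]
    exact sum_congr rfl fun m _ => by linear_combination (s k * s l * A k m * A m l) * hs m
  · rw [show 4 * (s k * s l * B k l) = s k * s l * (4 * B k l) by ring, ← h.BB, mul_sum]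
    exact sum_congr rfl fun m _ => by linear_combination (s k * s l * B k m * B m l) * hs m
  · rw [show s k * d k * (s l * d l) = s k * s l * (d k * d l) by ring, ← h.AB, mul_sum]
    exact sum_congr rfl fun m _ => by linear_combination (s k * s l * A k m * B m l) * hs m
  · simpa [e] using hs k
  · simpa only [hs, one_mul] using h.tA
  · simpa only [hs, one_mul] using h.tB

/-- With `a = A k k`: `∑_{l ≠ k} A k l ^ 2 = a (4 - a)`, `∑_{l ≠ k} A k l * d l = (4 - a) d k`, and `t ≤ t²`,
`t ≡ t² mod 2` for integers.  Row `j`: `a = 1`: `6 ≤ 3`; `a = 3`: `2 ≡ 3`; `a = 4`: the row is zero off the diagonal,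
`AB j l` reads `4 B j l = 2`.  `a = 2`: the sum and the sum of squares are `4`, so four entries are `1`; for such `l`,
`A l l = 1` gives `2 + ∑ = 3` with sum of squares `2`, false by parity; so the trace is `≥ 2 + 4 * 2 + 8`. -/
theorem not_thirteen (hK : Fintype.card K = 13) {j : K} (hj : d j = 2) (h1 : ∀ k ≠ j, d k = 1) :
    False := by
  classical
  have key : ∀ k, ∑ m ∈ univ.erase j, (A k m ^ 2 - A k m) + (A k j ^ 2 - 2 * A k j) =
      4 * A k k - 4 * d k := fun k => by
    rw [← h.row_sq, ← h.Ad, ← sum_sub_distrib, ← sum_erase_add _ _ (mem_univ j), hj, mul_comm 2]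
    congr 1
    exact sum_congr rfl fun m hm => by rw [h1 m (ne_of_mem_erase hm), mul_one]
  have hsq := h.row_sq j
  rw [← sum_erase_add _ _ (mem_univ j)] at hsq
  have hnn : 0 ≤ ∑ m ∈ univ.erase j, A j m ^ 2 := sum_nonneg fun m _ => sq_nonneg _
  have ha := h.one_le j
  have ha' : A j j ≤ 4 := by nlinarith
  have hk := key j
  have hp := two_dvd_sum_sq_sub (univ.erase j) (A j)
  have hn : 0 ≤ ∑ m ∈ univ.erase j, (A j m ^ 2 - A j m) := sum_nonneg fun m _ => sq_sub_nonneg _
  rw [hj] at hk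
  have hc : (univ.erase j).card = 12 := by rw [card_erase_of_mem (mem_univ j), card_univ, hK]
  obtain e | e | e | e : A j j = 1 ∨ A j j = 2 ∨ A j j = 3 ∨ A j j = 4 := by omega
  · rw [e] at hk; omega
  · rw [e] at hk hsq
    have h0 : ∑ m ∈ univ.erase j, (A j m ^ 2 - A j m) = 0 := by omega
    have h4 : ∑ m ∈ univ.erase j, A j m = 4 := by rw [sum_sub_distrib] at h0; omega
    rw [sum_eq_zero_iff_of_nonneg fun m _ => sq_sub_nonneg _] at h0
    have h5 : ∑ m ∈ univ.erase j, (1 + A j m) ≤ ∑ m ∈ univ.erase j, A m m := by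
      refine sum_le_sum fun m hm => ?_
      have := h.one_le m
      rcases zero_or_one (h0 m hm) with e' | e'
      · omega
      · have hm' := key m
        have hp' := two_dvd_sum_sq_sub (univ.erase j) (A m)
        rw [h.sA m j, e', h1 m (ne_of_mem_erase hm)] at hm'
        omega
    have h6 := h.tA
    rw [← sum_erase_add _ _ (mem_univ j), e] at h6
    rw [sum_add_distrib, h4, sum_const, hc, nsmul_eq_mul] at h5
    omega
  · rw [e] at hk; omega
  · rw [e] at hsq
    have h0 : ∑ m ∈ univ.erase j, A j m ^ 2 = 0 := by omega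
    rw [sum_eq_zero_iff_of_nonneg fun m _ => sq_nonneg _] at h0
    obtain ⟨l, hl⟩ : (univ.erase j).Nonempty := card_pos.1 (by omega)
    have h7 := h.AB j l
    rw [← sum_erase_add _ _ (mem_univ j), sum_eq_zero fun m hm => by
      rw [pow_eq_zero_iff two_ne_zero |>.1 (h0 m hm), zero_mul], e, hj,
      h1 l (ne_of_mem_erase hl)] at h7
    omega

theorem zo (hK : Fintype.card K = 16) (h1 : ∀ k, d k = 1) :
    (∀ k, A k k = 1) ∧ (∀ k l, A k l = 0 ∨ A k l = 1) ∧ (∀ k, ∑ l, A k l = 4) ∧
      ∀ k l m, A k l = 1 → A k m = 1 → A m l = 1 := by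
  have a1 : ∀ k, A k k = 1 := by
    have h0 : ∑ k, (A k k - 1) = 0 := by
      rw [sum_sub_distrib, h.tA, sum_const, card_univ, hK]; norm_num
    rw [sum_eq_zero_iff_of_nonneg fun k _ => sub_nonneg.2 (h.one_le k)] at h0
    exact fun k => sub_eq_zero.1 (h0 k (mem_univ k))
  have a2 : ∀ k, ∑ l, A k l = 4 := fun k => by simpa [h1] using h.Ad k
  have a3 : ∀ k l, A k l = 0 ∨ A k l = 1 := fun k l => by
    have h0 : ∑ l, (A k l ^ 2 - A k l) = 0 := by rw [sum_sub_distrib, h.row_sq, a1, a2]; norm_num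
    rw [sum_eq_zero_iff_of_nonneg fun l _ => sq_sub_nonneg _] at h0
    exact zero_or_one (h0 l (mem_univ l))
  refine ⟨a1, a3, a2, fun k l m e e' => ?_⟩
  have h0 : ∑ m, (A k m - A k m * A m l) = 0 := by rw [sum_sub_distrib, h.AA, a2, e]; norm_num
  rw [sum_eq_zero_iff_of_nonneg fun m _ => by
    rcases a3 k m with e1 | e1 <;> rcases a3 m l with e2 | e2 <;> simp [e1, e2]] at h0
  have := h0 m (mem_univ m)
  rw [e'] at this
  omega

theorem meet (hK : Fintype.card K = 16) (h1 : ∀ k, d k = 1) (k l : K) :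
    ∃! m, A k m = 1 ∧ B m l = 1 := by
  classical
  have a3 := (h.zo hK h1).2.1
  have b3 := (h.symm.zo hK h1).2.1
  have h0 := h.AB k l
  rw [h1, h1, mul_one, sum_congr rfl (g := fun m => if A k m = 1 ∧ B m l = 1 then 1 else 0)
    fun m _ => by rcases a3 k m with e1 | e1 <;> rcases b3 m l with e2 | e2 <;> simp [e1, e2],
    sum_boole, Nat.cast_eq_one, card_eq_one] at h0
  obtain ⟨m, hm⟩ := h0
  refine ⟨m, ?_, fun m' hm' => ?_⟩
  · simpa using (hm ▸ mem_singleton_self m : m ∈ filter _ univ)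
  · exact mem_singleton.1 (hm ▸ mem_filter.2 ⟨mem_univ _, hm'⟩)

theorem exists_cls (hK : Fintype.card K = 16) (h1 : ∀ k, d k = 1) :
    ∃ f : K → ZMod 4, ∀ k l, A k l = if f k = f l then 1 else 0 := by
  classical
  obtain ⟨a1, a3, -, a4⟩ := h.zo hK h1
  obtain ⟨-, b3, b2, -⟩ := h.symm.zo hK h1
  obtain ⟨k₀⟩ : Nonempty K := Fintype.card_pos_iff.1 (by omega)
  have hc : Fintype.card {m // B m k₀ = 1} = Fintype.card (ZMod 4) := by
    have := b2 k₀
    rw [sum_congr rfl (g := fun m => if B m k₀ = 1 then 1 else 0) fun m _ => by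
      rw [h.sB m k₀]; rcases b3 k₀ m with e | e <;> simp [e], sum_boole] at this
    rw [Fintype.card_subtype, ZMod.card]
    exact_mod_cast this
  let e := Fintype.equivOfCardEq hc
  choose g hg hu using fun k => h.meet hK h1 k k₀
  refine ⟨fun k => e ⟨g k, (hg k).2⟩, fun k l => ?_⟩
  simp only [EmbeddingLike.apply_eq_iff_eq, Subtype.mk.injEq]
  split_ifs with H
  · exact a4 (g k) l k (by rw [h.sA, H]; exact (hg l).1) (by rw [h.sA]; exact (hg k).1)
  · refine (a3 k l).resolve_right fun e' => H (hu l _ ⟨?_, (hg k).2⟩)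
    exact a4 k _ l (hg k).1 e'

/-- All `A k k = 1`; off the diagonal a row has sum and sum of squares `3`, so all entries are `0, 1`, four of them `1`
in each row; `A k l = 1` gives `∑ m, A k m * A l m = 4`, so the rows `k, l` agree: an equivalence relation with
classes of size four, so four classes.  The same for `B`; `AB` says that an `A`-class and a `B`-class meet in one point. -/
theorem grid (hK : Fintype.card K = 16) (h1 : ∀ k, d k = 1) : ∃ e : K ≃ ZMod 4 × ZMod 4,
    ∀ k l, (A k l = if (e k).1 = (e l).1 then 1 else 0) ∧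
      B k l = if (e k).2 = (e l).2 then 1 else 0 := by
  obtain ⟨f, hf⟩ := h.exists_cls hK h1
  obtain ⟨g, hg⟩ := h.symm.exists_cls hK h1
  refine ⟨Equiv.ofBijective (fun k => (f k, g k)) ((Fintype.bijective_iff_injective_and_card _).2
    ⟨fun k l e => ?_, by simp [hK]⟩), fun k l => ⟨hf k l, hg k l⟩⟩
  obtain ⟨e1, e2⟩ := Prod.mk.inj e
  exact (h.meet hK h1 k l).unique ⟨by simp [hf], by simp [hg, e2]⟩ ⟨by simp [hf, e1], by simp [hg]⟩

/-- `[t = a + 1] - [t = a]`. -/
def ep (a t : ZMod 4) : ℤ := (if t = a + 1 then 1 else 0) - if t = a then 1 else 0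

omit h in
theorem sum_mul_ep (c : ZMod 4 → ℤ) (a : ZMod 4) : ∑ t, c t * ep a t = c (a + 1) - c a := by
  simp [ep, mul_sub, sum_sub_distrib]

omit h in
theorem sum_ep_sq (a : ZMod 4) : ∑ t, ep a t ^ 2 = 2 := by
  revert a; decide

omit h in
theorem sum_shift (c : ZMod 4 → ℤ) : ∑ a, (c (a + 1) - c a) = 0 := by
  rw [sum_sub_distrib, sub_eq_zero]
  exact Equiv.sum_comp (Equiv.addRight (1 : ZMod 4)) c

omit h in
theorem const_of_shift {c : ZMod 4 → ℤ} (hc : ∀ a, c (a + 1) = c a) (a : ZMod 4) : c a = c 0 := by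
  have e1 : c 1 = c 0 := hc 0
  have e2 : c 2 = c 1 := hc 1
  have e3 : c 3 = c 2 := hc 2
  obtain rfl | rfl | rfl | rfl : a = 0 ∨ a = 1 ∨ a = 2 ∨ a = 3 := by revert a; decide
  all_goals omega

omit h in
/-- `μ = 4`, sixteen vectors `e(a+1,b+1) - e(a+1,b) - e(a,b+1) + e(a,b)` of norm `4`.  The values `v a b` have zero row and
column sums; if `v a b ≠ 0` there is `a' ≠ a` with `v a' b ≠ 0` and both rows have sum of squares `≥ 2` (parity).  If all vanish,
`c (a, b) = c (a, 0) + c (0, b) - c (0, 0)`. -/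
theorem dual_grid (e : K ≃ ZMod 4 × ZMod 4)
    (he : ∀ k l, (A k l = if (e k).1 = (e l).1 then 1 else 0) ∧
      B k l = if (e k).2 = (e l).2 then 1 else 0) : Dual (fun k => Sum.elim (A k) (B k)) 16 := by
  classical
  have tr : ∀ F : ZMod 4 → ZMod 4 → ℤ, ∑ k, F (e k).1 (e k).2 = ∑ s, ∑ t, F s t := fun F => by
    rw [← Fintype.sum_prod_type']
    exact e.sum_comp fun p => F p.1 p.2
  have z : ∀ a, ∑ t, ep a t = 0 := fun a => by simpa using sum_mul_ep (fun _ => 1) a
  refine dual_of (J := ZMod 4 × ZMod 4) (μ := 4) (fun p k => ep p.1 (e k).1 * ep p.2 (e k).2)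
    (by norm_num) (fun p i => ?_) ?_ fun c hc => ?_
  · rcases i with i | i
    · simp only [Sum.elim_inl, (he _ _).1]
      rw [tr fun s t => ep p.1 s * ep p.2 t * if s = (e i).1 then 1 else 0]
      refine sum_eq_zero fun s _ => ?_
      rw [← sum_mul, ← mul_sum, z, mul_zero, zero_mul]
    · simp only [Sum.elim_inr, (he _ _).2]
      rw [tr fun s t => ep p.1 s * ep p.2 t * if t = (e i).2 then 1 else 0, sum_comm]
      refine sum_eq_zero fun s _ => ?_
      rw [← sum_mul, ← sum_mul, z, zero_mul, zero_mul]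
  · rw [sum_congr rfl (g := fun _ => 4) fun p _ => by
      rw [tr fun s t => (ep p.1 s * ep p.2 t) ^ 2]
      simp only [mul_pow, ← mul_sum, ← sum_mul, sum_ep_sq]
      norm_num]
    simp
  · obtain ⟨C, hC⟩ : ∃ C : ZMod 4 → ZMod 4 → ℤ, ∀ k, c k = C (e k).1 (e k).2 :=
      ⟨fun s t => c (e.symm (s, t)), fun k => by simp⟩
    obtain ⟨v, hv⟩ : ∃ v : ZMod 4 → ZMod 4 → ℤ, ∀ a b,
      v a b = (C (a + 1) (b + 1) - C (a + 1) b) - (C a (b + 1) - C a b) := ⟨_, fun _ _ => rfl⟩
    have h1 : ∀ p : ZMod 4 × ZMod 4, ∑ k, c k * (ep p.1 (e k).1 * ep p.2 (e k).2) = v p.1 p.2 :=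
      fun p => by
        simp only [hC]
        rw [tr fun s t => C s t * (ep p.1 s * ep p.2 t), hv,
          ← sum_mul_ep (fun s => C s (p.2 + 1) - C s p.2)]
        refine sum_congr rfl fun s _ => ?_
        rw [← sum_mul_ep (C s), sum_mul]
        exact sum_congr rfl fun t _ => by ring
    simp only [h1] at hc
    rw [Fintype.sum_prod_type' fun a b => v a b ^ 2] at hc
    have r0 : ∀ a, ∑ b, v a b = 0 := fun a => by
      simp only [hv]
      rw [sum_sub_distrib, sum_shift, sum_shift, sub_zero]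
    have c0 : ∀ b, ∑ a, v a b = 0 := fun b => by
      simp only [hv]
      exact sum_shift fun a => C a (b + 1) - C a b
    have h2 : ∀ a b, v a b = 0 := fun a b => by
      by_contra H
      obtain ⟨a', ha', H'⟩ : ∃ a', a' ≠ a ∧ v a' b ≠ 0 := by
        by_contra! H'
        exact H ((Fintype.sum_eq_single a fun a' h' => H' a' h').symm.trans (c0 b))
      have := sum_le_sum_of_subset_of_nonneg (subset_univ {a', a})
        (f := fun a => ∑ b, v a b ^ 2) fun a _ _ => sum_nonneg fun b _ => sq_nonneg _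
      rw [sum_pair ha'] at this
      have := two_le_sq_sum (r0 a) H
      have := two_le_sq_sum (r0 a') H'
      omega
    have h3 : ∀ a b, C a b = C a 0 + (C 0 b - C 0 0) := fun a b => by
      have := const_of_shift (c := fun b => C a b - C 0 b) (fun b => by
        have := const_of_shift (c := fun a => C a (b + 1) - C a b)
          (fun a => sub_eq_zero.1 ((hv a b).symm.trans (h2 a b))) a
        omega) b
      omega
    refine ⟨1, Sum.elim (fun i => if (e i).2 = 0 then C (e i).1 0 else 0)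
      fun i => if (e i).1 = 0 then C 0 (e i).2 - C 0 0 else 0, one_ne_zero, fun k => ?_⟩
    simp only [Fintype.sum_sum_type, Sum.elim_inl, Sum.elim_inr, (he _ _).1, (he _ _).2]
    rw [tr fun s t => (if t = 0 then C s 0 else 0) * if (e k).1 = s then 1 else 0,
      tr fun s t => (if s = 0 then C 0 t - C 0 0 else 0) * if (e k).2 = t then 1 else 0,
      one_mul, hC, h3]
    simp

/-- Signs `s k = sign (d k)`; `∑ d² = 16` with at least eleven nonzero terms: sixteen `1`, or twelve `1` and
one `2`.  Transport `Dual` along the signs (`y j k ↦ s k * y j k`, `c k ↦ s k * c k`, `a i ↦ s i * a i`). -/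
theorem dual (hK : 11 ≤ Fintype.card K) : Dual (fun k => Sum.elim (A k) (B k)) 16 := by
  classical
  have hs : ∀ k, (d k).sign * (d k).sign = 1 := fun k => by
    rcases lt_or_gt_of_ne (h.ne k) with e | e
    · simp [Int.sign_eq_neg_one_of_neg e]
    · simp [Int.sign_eq_one_of_pos e]
  have h' := h.sign hs
  have hp : ∀ k, 1 ≤ (d k).sign * d k := fun k => by
    rw [Int.sign_mul_self_eq_abs]
    exact Int.one_le_abs (h.ne k)
  generalize hd : (fun k => (d k).sign * d k) = d' at h'
  have hp' : ∀ k, 1 ≤ d' k := fun k => hd ▸ hp k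
  have h0 : ∑ k, (d' k ^ 2 - 1) = 16 - (Fintype.card K : ℤ) := by
    rw [sum_sub_distrib, h'.dd]; simp
  have hn : ∀ k, 0 ≤ d' k ^ 2 - 1 := fun k => by nlinarith [hp' k]
  by_cases H : ∀ k, d' k = 1
  · have hK' : Fintype.card K = 16 := by
      simp only [H] at h0
      norm_num at h0
      omega
    obtain ⟨e, he⟩ := h'.grid hK' H
    refine Dual.of_sign (s := fun k => (d k).sign) (t := Sum.elim (fun k => (d k).sign)
      fun k => (d k).sign) hs (fun i => by rcases i with i | i <;> exact hs i) ?_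
    convert dual_grid e he using 3 with k i
    rcases i with i | i <;> rfl
  · push Not at H
    obtain ⟨j, hj⟩ := H
    have h2 : 2 ≤ d' j := by have := hp' j; omega
    rw [← sum_erase_add _ _ (mem_univ j)] at h0
    have hn' : 0 ≤ ∑ k ∈ univ.erase j, (d' k ^ 2 - 1) := sum_nonneg fun k _ => hn k
    have h3 : d' j = 2 := by
      by_contra h3
      have : 3 ≤ d' j := by omega
      nlinarith
    have h4 : ∀ k ≠ j, d' k = 1 := fun k hk => by
      have := single_le_sum (f := fun k => d' k ^ 2 - 1) (fun k _ => hn k)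
        (mem_erase.2 ⟨hk, mem_univ k⟩)
      rw [h3] at h0
      by_contra h5
      have : 2 ≤ d' k := by have := hp' k; omega
      nlinarith
    rw [h3, sum_eq_zero fun k hk => by rw [h4 k (ne_of_mem_erase hk)]; norm_num] at h0
    exact (h'.not_thirteen (by omega) h3 h4).elim

end Nine

end Cfsg.Lib.CZ
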