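import Mathlib

/-!
# Brauer's `k(B)` bound for a central cyclic subgroup of index at most 16: definitions
-/

set_option autoImplicit false

namespace Cfsg.Lib.CZ

open Subgroup Finset

/-- A family of integral vectors orthogonal to the columns of `x`, of total norm at most `μ n`, such
that the attached sum of squares is at least `μ` outside the rational span of the columns. -/
def Dual {K I : Type*} [Fintype K] [Fintype I] (x : K → I → ℤ) (n : ℤ) : Prop :=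
  ∃ (N : ℕ) (y : Fin N → K → ℤ) (μ : ℤ), 0 < μ ∧ (∀ j i, ∑ k, y j k * x k i = 0) ∧
    ∑ j, ∑ k, y j k ^ 2 ≤ μ * n ∧ ∀ c : K → ℤ, ∑ j, (∑ k, c k * y j k) ^ 2 < μ →
      ∃ (m : ℤ) (a : I → ℤ), m ≠ 0 ∧ ∀ k, m * c k = ∑ i, a i * x k i

theorem dual_of {K I J : Type*} [Fintype K] [Fintype I] [Fintype J] {x : K → I → ℤ} {n μ : ℤ}
    (y : J → K → ℤ) (h0 : 0 < μ) (h1 : ∀ j i, ∑ k, y j k * x k i = 0)
    (h2 : ∑ j, ∑ k, y j k ^ 2 ≤ μ * n) (h3 : ∀ c : K → ℤ, ∑ j, (∑ k, c k * y j k) ^ 2 < μ →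
      ∃ (m : ℤ) (a : I → ℤ), m ≠ 0 ∧ ∀ k, m * c k = ∑ i, a i * x k i) : Dual x n :=
  let e := (Fintype.equivFin J).symm
  ⟨_, fun j => y (e j), μ, h0, fun j => h1 (e j),
    (e.sum_comp fun j => ∑ k, y j k ^ 2).trans_le h2,
    fun c hc => h3 c ((e.sum_comp fun j => (∑ k, c k * y j k) ^ 2).symm.trans_lt hc)⟩

/-- `Q₈ × C₂` and `Q₈ * C₄`. -/
structure QT (P : Type*) [Group P] : Prop where
  card : Nat.card P = 16
  der : Nat.card (commutator P) = 2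
  idx : (center P).index = 4
  sq : ∀ x : P, x * x ∈ commutator P
  ess : (∀ x : P, x * x = 1 → x ∈ center P) ∨ ∃ w ∈ center P, w * w ≠ 1

/-- `C₃ × C₃` acting on `2² × 2²`. -/
structure S9 {A : Type*} [Group A] (E : Subgroup (MulAut A)) (V W : Subgroup A) : Prop where
  card : Nat.card A = 16
  two : ∀ a : A, a * a = 1
  cV : Nat.card V = 4
  cW : Nat.card W = 4
  disj : Disjoint V W
  mV : ∀ β ∈ E, ∀ v ∈ V, β v ∈ V
  mW : ∀ β ∈ E, ∀ w ∈ W, β w ∈ W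
  tV : ∀ v ∈ V, v ≠ 1 → ∀ v' ∈ V, v' ≠ 1 → ∃ γ ∈ E, γ v = v' ∧ ∀ w ∈ W, γ w = w
  tW : ∀ w ∈ W, w ≠ 1 → ∀ w' ∈ W, w' ≠ 1 → ∃ γ ∈ E, γ w = w' ∧ ∀ v ∈ V, γ v = v
  fV : ∀ β ∈ E, ∀ v ∈ V, v ≠ 1 → β v = v → ∀ v' ∈ V, β v' = v'
  fW : ∀ β ∈ E, ∀ w ∈ W, w ≠ 1 → β w = w → ∀ w' ∈ W, β w' = w'

theorem S9.symm {A : Type*} [Group A] {E : Subgroup (MulAut A)} {V W : Subgroup A}
    (h : S9 E V W) : S9 E W V :=
  ⟨h.card, h.two, h.cW, h.cV, h.disj.symm, h.mW, h.mV, h.tW, h.tV, h.fW, h.fV⟩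

/-- The automorphism `τ` of `P` fixes the central element `z` and induces `β` on `P / ⟨z⟩ = A`. -/
structure Ind {P A : Type*} [Group P] [Group A] (z : P) (φ : P →* A) (τ : MulAut P)
    (β : MulAut A) : Prop where
  cen : z ∈ center P
  surj : Function.Surjective φ
  ker : φ.ker = zpowers z
  fix : τ z = z
  map : ∀ d, φ (τ d) = β (φ d)

end Cfsg.Lib.CZ
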