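import Cfsg.Agent.Lib.CZ.Def
import Cfsg.Agent.Lib.OL5.Grp2
import Cfsg.Agent.Lib.FGS.Taussky

/-!
# Groups of order at most 16
-/

set_option autoImplicit false

namespace Cfsg.Lib.CZ

open Subgroup Cfsg.Lib.CY4 Cfsg.Lib.OL5

variable {P : Type*} [Group P] [Finite P]

theorem g16_c (h2 : Nat.card (commutator P) = 2) : ∃ c : P, c ≠ 1 ∧ c * c = 1 ∧ (∀ g, g * c = c * g) ∧
    (∀ d, d ∈ commutator P ↔ d = 1 ∨ d = c) ∧ (∀ a b : P, a * b ≠ b * a → a * b = c * (b * a)) ∧
    ∀ a : P, a * a ∈ center P := by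
  obtain ⟨⟨c, hc⟩, c1⟩ := ne_bot_iff_exists_ne_one.1 (g1_ne_bot (N := commutator P) (by omega))
  replace c1 : c ≠ 1 := fun e => c1 (Subtype.ext e)
  have z := mem_center_iff.1 (g1_central h2 hc)
  have c2 : c * c = 1 := (g1_two h2 hc c1 (mul_mem hc hc)).resolve_right fun e => c1 (mul_eq_left.1 e)
  have k : ∀ a b : P, a * b ≠ b * a → a * b = c * (b * a) := fun a b n => by
    rcases g1_two h2 hc c1 (g1_comm_mem a b) with e | e
    · exact absurd (by rw [← mul_inv_eq_one, ← e]; group) n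
    · rw [← e]; group
  refine ⟨c, c1, c2, z, fun d => ⟨g1_two h2 hc c1, ?_⟩, k, fun a => mem_center_iff.2 fun b => ?_⟩
  · rintro (rfl | rfl)
    exacts [one_mem _, hc]
  · by_cases e : b * a = a * b
    · rw [← mul_assoc, e, mul_assoc, e, mul_assoc]
    · rw [← mul_assoc, k _ _ e, mul_assoc, mul_assoc, k _ _ e, ← mul_assoc a, z a, ← mul_assoc, ← mul_assoc, ← mul_assoc, c2,
        one_mul]

omit [Finite P] in
theorem g16_ord {x : P} (h4 : x ^ 4 = 1) (h2 : x * x ≠ 1) : orderOf x = 2 ^ (1 + 1) :=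
  orderOf_eq_prime_pow (by rwa [pow_one, sq]) h4

theorem g16_top (h16 : Nat.card P = 16) {x y t : P} {H : Subgroup P} (o : orderOf x = 2 ^ (1 + 1)) (n : y ∉ zpowers x)
    (n' : t ∉ zpowers x ⊔ zpowers y) (l : zpowers x ⊔ zpowers y ≤ H) (m : t ∈ H) : H = ⊤ := by
  have h1 := g1_half (le_sup_left : _ ≤ zpowers x ⊔ zpowers y) (mem_sup_right (mem_zpowers y)) n
  have h2 := g1_half l m n'
  rw [Nat.card_zpowers, o] at h1
  exact eq_top_of_le_card _ (by omega)

omit [Finite P] in
theorem g16_not {x y t : P} (e : y * x = x * y) (n : t * x ≠ x * t) : t ∉ zpowers x ⊔ zpowers y := fun h =>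
  n (mem_centralizer_singleton_iff.1 ((sup_le (zpowers_le.2 (mem_centralizer_singleton_iff.2 rfl))
    (zpowers_le.2 (mem_centralizer_singleton_iff.2 e)) :) h))

theorem g16_w (h16 : Nat.card P = 16) {X S T σ : P} (o : orderOf X = 2 ^ (1 + 1)) (S2 : S * S = 1) (n : S ∉ zpowers X)
    (z : S ∈ center P) (T2 : T * T = 1) (n' : T * X ≠ X * T) (hσ : σ = 1 ∨ σ = S) (e : T * X * T = X⁻¹ * σ) :
    W ⊤ X S T σ 0 :=
  have := g16_not (mem_center_iff.1 z X).symm n'
  ⟨o, S2, n, mem_center_iff.1 z X, mem_center_iff.1 z T, T2, this, hσ, e,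
    g16_top h16 o n this le_sup_left (mem_sup_right (mem_zpowers T))⟩

/-- `P' = {1, c} ≤ Z` (`g1_central`, `g1_two`), squares are central.  `x² ≠ 1, c`; `x ^ 4 = 1`.  `#Z = 4`, so
`Z = {1, c, x², c x²}`, `x ∉ Z`; take `t` with `t x t⁻¹ = x c`; `(t x)² = t² x² c`.  If `t² = 1` or `(t x)² = 1`
(call it `T`): `W ⊤ x S T S 0` with `S = x² c` (`⟨x⟩ ⊔ ⟨S⟩` has order eight and commutes with `x`).  Otherwise
`t² = c` or `(t x)² = c` (call it `t`): `⟨t⟩ ≥ P'` is normal of order four and `x` generates the quotient. -/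
theorem of_sq_not_mem (h16 : Nat.card P = 16) (h2 : Nat.card (commutator P) = 2)
    (hZ : (center P).index = 4) (h4 : ∀ x : P, x ^ 4 = 1) {x : P} (hx : x * x ∉ commutator P) :
    IsMetacyclic P ∨ ∃ X S T σ : P, W ⊤ X S T σ 0 := by
  obtain ⟨c, c1, c2, z, m, k, sq⟩ := g16_c h2
  have cN := (m c).2 (.inr rfl)
  have x4 : x * x * (x * x) = 1 := by rw [← h4 x]; simp [pow_succ, mul_assoc]
  have o := g16_ord (h4 x) fun e => hx (e ▸ one_mem _)
  have hc := (center P).card_mul_index
  have zz : ∀ a ∈ center P, a ∈ commutator P ∨ a * (x * x) ∈ commutator P := fun a ha =>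
    (em _).imp_right fun n => g1_mul (g1_central h2) (by rw [hZ] at hc; omega) ha (sq x) n hx
  obtain ⟨t, ht⟩ : ∃ t, t * x ≠ x * t := by
    by_contra! h
    rcases zz x (mem_center_iff.2 h) with e | e
    · exact hx (mul_mem e e)
    · have := inv_mem e
      rw [inv_eq_of_mul_eq_one_right (show x * (x * x) * x = 1 by simpa only [mul_assoc] using x4)] at this
      exact hx (mul_mem this this)
  obtain ⟨T, hT, T2⟩ : ∃ T, T * x ≠ x * T ∧ T * T ∈ commutator P := by
    rcases zz _ (sq t) with e | e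
    · exact ⟨t, ht, e⟩
    · refine ⟨t * x, fun e => ht (mul_right_cancel (e.trans (mul_assoc _ _ _).symm)), ?_⟩
      convert mul_mem cN e using 1
      rw [mul_assoc, ← mul_assoc x, k _ _ ht.symm, ← mul_assoc, ← mul_assoc, z t]
      group
  rcases (m _).1 T2 with e | e
  · refine .inr ⟨x, x * x * c, T, _, g16_w h16 o ?_ (fun h => ?_) (mul_mem (sq x) (mem_center_iff.2 z)) e hT (.inr rfl) ?_⟩
    · rw [mul_assoc, ← mul_assoc c, ← z, mul_assoc _ c, c2, mul_one, x4]
    · rcases inv_zpowers o ((mul_mem_cancel_left (mul_mem (mem_zpowers x) (mem_zpowers x))).1 h) c2 with e | e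
      · exact c1 e
      · exact hx (by rwa [e, pow_one, pow_two] at cN)
    · rw [k _ _ hT, mul_assoc, mul_assoc, e, mul_one, ← z]
      group
  · have o' := g16_ord (h4 T) (e ▸ c1)
    refine .inl (PGroup.isMetacyclic_iff_exists.2 ⟨T, x, gp_norm ?_, g16_top h16 o' (y := x * x) (fun h => ?_)
      (g16_not (mem_center_iff.1 (sq x) T).symm hT.symm) (sup_le_sup_left (zpowers_le.2
        (mul_mem (mem_zpowers x) (mem_zpowers x))) _) (mem_sup_right (mem_zpowers x))⟩)
    · rw [k _ _ hT.symm, ← mul_assoc, mul_inv_cancel_right, ← e]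
      exact mul_mem (mul_mem (mem_zpowers T) (mem_zpowers T)) (mem_zpowers T)
    · exact hx ((m _).2 ((inv_zpowers o' h x4).imp_right fun e' => by rw [e', pow_one, pow_two, e]))

/-- If `QT.ess` fails, `Z` has exponent two and `T ∉ Z` is an involution; take `y` not commuting with `T`,
`X = y` if `y² = c`, `X = T y` if `y² = 1`; `S ∈ Z \ P'`; `W ⊤ X S T 1 0`. -/
theorem of_sq_mem (h16 : Nat.card P = 16) (h2 : Nat.card (commutator P) = 2)
    (hZ : (center P).index = 4) (h : ∀ x : P, x * x ∈ commutator P) :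
    (∃ X S T σ : P, W ⊤ X S T σ 0) ∨ QT P := by
  refine (em _).symm.imp (fun n => ?_) fun e => ⟨h16, h2, hZ, h, e⟩
  obtain ⟨c, c1, c2, z, m, k, -⟩ := g16_c h2
  push Not at n
  obtain ⟨⟨T, T2, hT⟩, n⟩ := n
  obtain ⟨y, hy⟩ : ∃ y, y * T ≠ T * y := by simpa [mem_center_iff] using hT
  obtain ⟨X, hX, e⟩ : ∃ X, T * X ≠ X * T ∧ X * X = c := by
    rcases (m _).1 (h y) with e | e
    · refine ⟨T * y, fun e => hy (mul_left_cancel (e.trans (mul_assoc _ _ _))).symm, ?_⟩
      rw [k _ _ hy.symm, mul_assoc, mul_assoc, ← k _ _ hy.symm, ← mul_assoc T, T2, one_mul, e, mul_one]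
    · exact ⟨y, hy.symm, e⟩
  have o := g16_ord (show X ^ 4 = 1 by rw [← c2, ← e]; simp [pow_succ, mul_assoc]) (e ▸ c1)
  obtain ⟨S, hS, S'⟩ : ∃ S ∈ center P, S ∉ commutator P := by
    by_contra! l
    have := card_le_of_le (show center P ≤ commutator P from l)
    have hc := (center P).card_mul_index
    rw [hZ] at hc
    omega
  refine ⟨X, S, T, 1, g16_w h16 o (n S hS) (fun h => S' ((m _).2 ((inv_zpowers o h (n S hS)).imp_right fun e' => by
    rw [e', pow_one, pow_two, e]))) hS T2 hX (.inl rfl) ?_⟩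
  rw [k _ _ hX, mul_assoc, mul_assoc, T2, mul_one, mul_one, eq_inv_iff_mul_eq_one, mul_assoc, e, c2]

/-- A cyclic subgroup of index `≤ 2` gives `meta_of_index_le`: so for `#P ≤ 8` nonabelian (`exists_sq_ne`,
`g1_four`), for `x ^ 4 ≠ 1`, and for `(commutator P).index = 4` (`FGS.exists_mc_of_index_commutator`, or
`FGS.exists_index_le_two_aux`).  Otherwise `#P = 16`, `#P' = 2` (`PGroup.sq_mul_card_commutator_le`), and
`Z.index = 4`: for `a b ≠ b a`, `C(a) ⊓ C(b)` has index four (`g1_cent_two`), order four, it contains `Z ∋ c`;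
an element `y` of it commutes with `⟨a, b⟩`; if `y ∉ ⟨a, b⟩ ` then `P = ⟨a, b, y⟩` (`#⟨a, b⟩ ≥ 8`), so it is central. -/
theorem cases16 (hP : IsPGroup 2 P) (h : Nat.card P ≤ 16) :
    IsMetacyclic P ∨ (∃ X S T σ : P, W ⊤ X S T σ 0) ∨ commutator P = ⊥ ∨ QT P := by
  by_cases h1 : commutator P = ⊥
  · exact .inr (.inr (.inl h1))
  by_cases h8 : Nat.card P ≤ 8
  · obtain ⟨u, hu⟩ := exists_sq_ne h1
    exact .inl (meta_of_index_le (FGS.index_zpowers_le_two hP (k := 1) hu h8))
  by_cases h4 : ∃ x : P, x ^ 4 ≠ 1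
  · obtain ⟨u, hu⟩ := h4
    exact .inl (meta_of_index_le (FGS.index_zpowers_le_two hP (k := 2) hu h))
  by_cases hi : (commutator P).index = 4
  · obtain ⟨u, hu⟩ := FGS.exists_index_le_two_aux _ P le_rfl hP hi
    exact .inl (meta_of_index_le hu)
  push Not at h4
  have h16 : Nat.card P = 16 := by
    obtain ⟨n, hn⟩ := IsPGroup.iff_card.1 hP
    rw [hn] at h h8 ⊢
    have : n ≤ 4 := (Nat.pow_le_pow_iff_right (by norm_num)).1 (show 2 ^ n ≤ 2 ^ 4 from h)
    interval_cases n <;> omega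
  have h2 : Nat.card (commutator P) = 2 := by
    have a := PGroup.sq_mul_card_commutator_le (hP.to_subgroup ⊤) (by rw [card_top]; omega)
    have b := (commutator P).card_mul_index
    have c : Nat.card (commutator P) ≠ 1 := fun e => h1 (card_eq_one.1 e)
    rw [card_top, ← commutator_def] at a
    have : Nat.card (commutator P) ≤ 4 := by omega
    generalize Nat.card (commutator P) = n at *
    interval_cases n <;> omega
  have hZ : (center P).index = 4 := by
    obtain ⟨a, b, n⟩ := g1_noncomm h1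
    have ha : a ∉ center P := fun e => n (mem_center_iff.1 e b).symm
    have hb : b ∉ center P := fun e => n (mem_center_iff.1 e a)
    have l : centralizer {a} ⊓ centralizer {b} ≤ center P := fun y hy => by_contra fun hn => by
      have z : ∀ g : P, commutator P ≤ centralizer {g} := fun g => (g1_central h2).trans (center_le_centralizer _)
      have e1 := g1_half (le_sup_left : _ ≤ commutator P ⊔ zpowers y) (mem_sup_right (mem_zpowers y))
        fun e => hn (g1_central h2 e)
      have e2 := (centralizer {y}).card_mul_index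
      rw [g1_cent_two h2 hn] at e2
      have la := sup_le (z a) (zpowers_le.2 hy.1)
      have lb := sup_le (z b) (zpowers_le.2 hy.2)
      have := lb (g1_mul (sup_le (z y) (zpowers_le.2 (mem_centralizer_singleton_iff.2 rfl))) (by omega)
        (mem_centralizer_singleton_iff.2 (mem_centralizer_singleton_iff.1 hy.1).symm)
        (mem_centralizer_singleton_iff.2 (mem_centralizer_singleton_iff.1 hy.2).symm)
        (fun e => n (mem_centralizer_singleton_iff.1 (lb e))) fun e => n (mem_centralizer_singleton_iff.1 (la e)).symm)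
      exact n (mul_right_cancel ((mem_centralizer_singleton_iff.1 this).trans (mul_assoc _ _ _).symm))
    have e1 := gp_half (center_le_centralizer {a}) (mem_centralizer_singleton_iff.2 rfl) ha
    have e2 := (index_antitone l).trans index_inf_le
    rw [g1_cent_two h2 ha] at e1 e2
    rw [g1_cent_two h2 hb] at e2
    omega
  by_cases hs : ∀ x : P, x * x ∈ commutator P
  · exact .inr ((of_sq_mem h16 h2 hZ hs).imp_right .inr)
  · obtain ⟨x, hx⟩ := not_forall.1 hs
    exact (of_sq_not_mem h16 h2 hZ h4 hx).imp_right .inl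

end Cfsg.Lib.CZ
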