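import Cfsg.Agent.Lib.CZ.Fm
import Cfsg.Agent.Lib.OL5.Grp1
import Cfsg.Agent.Lib.OL5.AbG2

/-!
# Odd order groups acting on an abelian 2-group of order at most 16
-/

set_option autoImplicit false
set_option linter.unusedSectionVars false

namespace Cfsg.Lib.CZ

open Subgroup Cfsg.Lib.OL5

variable {A : Type*} [Group A] [Finite A] [IsMulCommutative A] {E : Subgroup (MulAut A)}
  {V W : Subgroup A} {β : MulAut A} {r r' : A}

/-- `card_mul_le` for `V ⊔ W`. -/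
theorem S9.mul (h : S9 E V W) (a : A) : ∃ v ∈ V, ∃ w ∈ W, a = v * w := by
  obtain ⟨⟨v, w⟩, e, -⟩ := (isComplement'_of_card_mul_and_disjoint (by rw [h.cV, h.cW, h.card]) h.disj).existsUnique a
  exact ⟨v, v.2, w, w.2, e.symm⟩

theorem S9.free (h : S9 E V W) (hβ : β ∈ E) (h1 : r ∉ V) (h2 : r ∉ W) (e : β r = r) : β = 1 := by
  obtain ⟨v, hv, w, hw, rfl⟩ := h.mul r
  have e1 : v⁻¹ * β v = w * (β w)⁻¹ := by
    rw [map_mul] at e
    rw [eq_mul_inv_iff_mul_eq, mul_assoc, e, inv_mul_cancel_left]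
  have h3 : v⁻¹ * β v = 1 := disjoint_def.1 h.disj (mul_mem (inv_mem hv) (h.mV β hβ v hv))
    (e1 ▸ mul_mem hw (inv_mem (h.mW β hβ w hw)))
  refine MulEquiv.ext fun a => ?_
  obtain ⟨v', hv', w', hw', rfl⟩ := h.mul a
  rw [map_mul, h.fV β hβ v hv (by rintro rfl; exact h2 (mul_mem (one_mem _) hw)) (inv_mul_eq_one.1 h3).symm v' hv',
    h.fW β hβ w hw (by rintro rfl; exact h1 (mul_mem hv (one_mem _))) (mul_inv_eq_one.1 (e1 ▸ h3)).symm w' hw']
  rfl

theorem S9.trans (h : S9 E V W) (h1 : r ∉ V) (h2 : r ∉ W) (h1' : r' ∉ V) (h2' : r' ∉ W) :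
    ∃ β ∈ E, β r = r' := by
  obtain ⟨v, hv, w, hw, rfl⟩ := h.mul r
  obtain ⟨v', hv', w', hw', rfl⟩ := h.mul r'
  obtain ⟨γ, hγ, e1, e2⟩ := h.tV v hv (by rintro rfl; exact h2 (mul_mem (one_mem _) hw)) v' hv'
    (by rintro rfl; exact h2' (mul_mem (one_mem _) hw'))
  obtain ⟨δ, hδ, e3, e4⟩ := h.tW w hw (by rintro rfl; exact h1 (mul_mem hv (one_mem _))) w' hw'
    (by rintro rfl; exact h1' (mul_mem hv' (one_mem _)))
  exact ⟨γ * δ, mul_mem hγ hδ, by rw [MulAut.mul_apply, map_mul, e3, e4 v hv, map_mul, e1, e2 w' hw']⟩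

theorem sq_of_trans (h2 : 2 ∣ Nat.card V) (t : ∀ v ∈ V, v ≠ 1 → ∀ v' ∈ V, v' ≠ 1 → ∃ γ : MulAut A, γ v = v') :
    ∀ v ∈ V, v * v = 1 := fun v hv => by
  obtain ⟨u, hu, o⟩ := Core.exists_mem_orderOf_eq_prime Nat.prime_two h2
  rcases eq_or_ne v 1 with rfl | v1
  · exact mul_one 1
  obtain ⟨γ, rfl⟩ := t u hu (fun e => by rw [e, orderOf_one] at o; omega) v hv v1
  rw [← map_mul, ← sq, ← o, pow_orderOf_eq_one, map_one]

theorem one_lt_card_of (hv : r ∈ V) (h : r ≠ 1) : 1 < Nat.card V :=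
  (one_lt_card_iff_ne_bot _).2 fun e => h (mem_bot.1 (e ▸ hv))

theorem fx4 (hA : IsPGroup 2 A) (ho : Odd (orderOf β)) (h4 : Nat.card V = 4) (m : ∀ v ∈ V, β v ∈ V) (hr : r ∈ V)
    (r1 : r ≠ 1) (e : β r = r) : V ≤ Fx β :=
  le_fx hA ho (zpowers_le.2 hr) m (zpowers_le.2 e) (by have := one_lt_card_of (mem_zpowers r) r1; omega)

/-- An automorphism of odd order without fixed points is transitive on the involutions of a group of order four. -/
theorem tr4 (ho : Odd (orderOf β)) (h4 : Nat.card V = 4) (m : ∀ v ∈ V, β v ∈ V) (f : ∀ v ∈ V, β v = v → v = 1)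
    (hr : r ∈ V) (r1 : r ≠ 1) (hr' : r' ∈ V) (r1' : r' ≠ 1) : ∃ γ ∈ zpowers β, γ r = r' := by
  by_contra! c
  have n1 : β r ≠ r := fun e => r1 (f r hr e)
  have n2 : β (β r) ≠ r := fun e => n1 (ab_fix (mem_zpowers_pow_iff.2 (Nat.coprime_two_left.2 ho)) (by rwa [sq]))
  have c1 : r ≠ r' := c 1 (one_mem _)
  have c2 : β r ≠ r' := c β (mem_zpowers β)
  have c3 : β (β r) ≠ r' := c (β * β) (mul_mem (mem_zpowers β) (mem_zpowers β))
  have := Set.ncard_le_ncard (s := {1, r, β r, β (β r), r'}) (t := (V : Set A))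
    (by simp [Set.insert_subset_iff, m, *])
  rw [Set.ncard_insert_of_notMem (by simp [eq_comm (a := (1 : A)), r1, r1']), Set.ncard_insert_of_notMem (by simp [n1.symm, n2.symm, c1]),
    Set.ncard_insert_of_notMem (by simp [n1.symm, c2]), Set.ncard_pair c3, ← Nat.card_coe_set_eq] at this
  exact absurd (this.trans h4.le) (by norm_num)

variable (hA : IsPGroup 2 A) (h16 : Nat.card A ≤ 16)
include hA h16

/-- `f a b = a b a⁻¹ b⁻¹ ∈ ⟨z⟩` is central, multiplicative in both variables, depends only on the images in `A`, and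
`f (τ a) (τ b) = f a b`.  `V = Vv β` has order eight (`card_vv`), `⟨β⟩` is transitive on `V \ 1` (`ab_trans`), so `V` has exponent
two; `A = V × Fx β`, `#(Fx β) ≤ 2`.  For `φ a ∈ Fx β`: `f a (b⁻¹ τ b) = 1`, so `a` commutes with the preimage of `V`.
If `f a b ≠ 1` with `φ a, φ b ∈ V`: the values `f a y` are involutions of `⟨z⟩`, so `{v ∈ V | f a v = 1 = f b v}` has index `≤ 4` in
`V` and contains `r ≠ 1`; `r ∉ ⟨φ a, φ b⟩`, so `V = ⟨φ a, φ b, r⟩` and `f r V = 1`; by transitivity `f a V = 1`. -/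
theorem no7 {P : Type*} [Group P] [Finite P] {z : P} {φ : P →* A} {τ : MulAut P} (h : Ind z φ τ β)
    (h7 : orderOf β = 7) (a b : P) : a * b = b * a := by
  obtain ⟨B, hB⟩ := h.exists_fm
  have ho : Odd (orderOf β) := by rw [h7]; decide
  have h8 : Nat.card (Vv β) = 8 := by
    have := card_vv hA (by omega) (by norm_num) (by norm_num) h7
    omega
  have hc := card_mul β
  have tr := fun v hv v1 w hw w1 => ab_trans hA (by norm_num) (by norm_num) h7 h8 (v := v) (w := w) hv v1 hw w1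
  have sq := sq_of_trans (V := Vv β) (by rw [h8]; decide) fun v hv v1 w hw w1 => (tr v hv v1 w hw w1).imp fun _ h => h.2
  have top : ∀ {K : Subgroup A}, Vv β ≤ K → Fx β ≤ K → ∀ v, v ∈ K := fun h1 h2 v =>
    ((isComplement'_of_card_mul_and_disjoint hc (disj hA ho)).sup_eq_top.ge.trans (sup_le h1 h2)) (mem_top v)
  have k1 : ∀ u ∈ Fx β, ∀ v, v ∈ (B u).ker := fun u hu => top (by rintro _ ⟨v, rfl⟩; exact hB.fix hu v) fun w hw => by
    rcases eq_or_ne u 1 with rfl | u1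
    · exact hB.symm (one_mem _)
    · rcases g1_two (N := Fx β) (by have := one_lt_card_of hu u1; rw [h8] at hc; omega) hu u1 hw with rfl | rfl
      exacts [one_mem _, hB.self _]
  have k2 : ∀ u ∈ Vv β, Vv β ≤ (B u).ker := fun u hu v hv => by_contra fun n => by
    have i : ∀ {u v}, v ∈ Vv β → v ∉ (B u).ker → (B u).ker.relIndex (Vv β) ≤ 2 := fun {u v} hv n => by
      have s : ∀ v ∈ Vv β, B u v * B u v = 1 := fun v hv => by rw [← map_mul, sq v hv, map_one]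
      rw [relIndex_ker, ← orderOf_eq_prime (x := B u v) (p := 2) (by rw [pow_two, s v hv]) n, ← Nat.card_zpowers]
      refine card_le_of_le ?_
      rintro _ ⟨w, hw, rfl⟩
      rcases CY4.gp_inv (hB.mem u w) (hB.mem u v) (s w hw) (s v hv) n with e | e <;> rw [e]
      exacts [one_mem _, mem_zpowers _]
    have n' : u ∉ (B v).ker := fun e => n (hB.symm e)
    have i2 := relIndex_inf_le.trans (Nat.mul_le_mul (i hv n) (i hu n'))
    obtain ⟨r, ⟨⟨ru, rv⟩, hr⟩, r1⟩ := (bot_or_exists_ne_one (((B u).ker ⊓ (B v).ker) ⊓ Vv β)).resolve_left fun e => by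
      rw [← inf_relIndex_right, e, relIndex_bot_left] at i2
      omega
    have a1 := one_lt_card_of (mem_zpowers r) r1
    have a2 := g1_half (le_sup_left : _ ≤ zpowers r ⊔ zpowers u) (mem_sup_right (mem_zpowers u))
      fun e => n' (zpowers_le.2 rv e)
    have a3 := g1_half (H := (B r).ker ⊓ Vv β) (sup_le (zpowers_le.2 ⟨hB.self r, hr⟩) (zpowers_le.2 ⟨hB.symm ru, hu⟩))
      ⟨hB.symm rv, hv⟩ fun e => n ((sup_le (zpowers_le.2 ru) (zpowers_le.2 (hB.self u)) :) e)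
    have a4 := inf_eq_right.1 (eq_of_le_of_card_ge (inf_le_right : (B r).ker ⊓ Vv β ≤ _) (by omega))
    obtain ⟨γ, hγ, rfl⟩ := tr r hr r1 u hu (by rintro rfl; exact n' (one_mem _))
    obtain ⟨v, rfl⟩ := γ.surjective v
    obtain ⟨k, rfl⟩ := hγ
    exact n ((hB.zpow ⟨k, rfl⟩ r v).trans (a4 (by
      simpa using map_mem_vv (β := (β ^ k)⁻¹) (ab_self (Commute.zpow_self β k).inv_left) hv)))
  exact hB.comm (top (fun v hv => hB.symm (top (k2 v hv) (fun w hw => hB.symm (k1 w hw v)) _))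
    (fun w hw => hB.symm (k1 w hw _)) _)

variable (ho : Odd (Nat.card E))
include ho

/-- If `E` fixes `Fx β` pointwise take `Y = Fx β` (`card_mul`).  Else `γ' ∈ E` moves an element of `V = Fx β`, so `#V = 4`
(`le_fx` with `K = ⊥`), `#A = 16`; `W = Vv β`.  For `1 ≠ w ∈ W`, `ab_trans` gives `δ ∈ ⟨β⟩` with `δ w = γ' w`, and
`γ = δ⁻¹ γ'` fixes `W` (`le_fx` with `K = ⟨w⟩`), moves an element of `V`, so fixes no `1 ≠ v ∈ V` and is transitive on the three
of them together with its square; hence `V` and `W` have exponent two. -/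
theorem of_pair (hβ : β ∈ E) (h3 : orderOf β = 3) (h4 : Nat.card (Vv β) = 4)
    (h1 : ∀ δ ∈ E, ∀ v ∈ Fx β, δ v ∈ Fx β) (h2 : ∀ δ ∈ E, ∀ v ∈ Vv β, δ v ∈ Vv β) :
    (∃ Y : Subgroup A, Y.index ≤ 4 ∧ ∀ δ ∈ E, ∀ w ∈ Y, δ w = w) ∨ ∃ V W, S9 E V W := by
  have hodd : ∀ β ∈ E, Odd (orderOf β) := fun β hβ => ho.of_dvd_nat (orderOf_dvd_natCard E hβ)
  have hc := card_mul β
  rw [h4] at hc
  refine (em _).imp (fun h : ∀ δ ∈ E, ∀ w ∈ Fx β, δ w = w => ⟨Fx β, ?_, h⟩) fun h => ⟨Fx β, Vv β, ?_⟩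
  · have := (Fx β).card_mul_index
    exact Nat.le_of_mul_le_mul_left (by omega) (Nat.card_pos (α := Fx β))
  push Not at h
  obtain ⟨γ', hγ', v0, hv0, n⟩ := h
  have cV : Nat.card (Fx β) = 4 := by
    have : ¬ Nat.card (Fx β) ≤ 2 := fun c => n (le_fx hA (hodd _ hγ') bot_le (h1 _ hγ') bot_le (by simpa using c) hv0)
    obtain ⟨j, hj⟩ := IsPGroup.iff_card.1 (hA.to_subgroup (Fx β))
    rw [hj] at this hc ⊢
    rcases j with _ | _ | j <;> omega
  have fV := fun δ hδ v hv v1 e => fx4 hA (hodd δ hδ) cV (h1 δ hδ) (r := v) hv v1 e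
  have fW := fun δ hδ v hv v1 e => fx4 hA (hodd δ hδ) h4 (h2 δ hδ) (r := v) hv v1 e
  have tW : ∀ w ∈ Vv β, w ≠ 1 → ∀ w' ∈ Vv β, w' ≠ 1 → ∃ γ ∈ zpowers β, γ w = w' := fun w hw w1 w' hw' w1' =>
    ab_trans hA Nat.prime_three (by decide) h3 h4 hw w1 hw' w1'
  obtain ⟨w0, hw0, w1⟩ := (bot_or_exists_ne_one (Vv β)).resolve_left fun e => by rw [e, card_bot] at h4; omega
  obtain ⟨δ, hδ, e⟩ := tW w0 hw0 w1 _ (h2 _ hγ' _ hw0) fun e => w1 ((map_eq_one_iff _ γ'.injective).1 e)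
  have hγ : δ⁻¹ * γ' ∈ E := mul_mem (inv_mem (zpowers_le.2 hβ hδ)) hγ'
  have tV : ∀ v ∈ Fx β, v ≠ 1 → ∀ v' ∈ Fx β, v' ≠ 1 → ∃ γ ∈ zpowers (δ⁻¹ * γ'), γ v = v' := fun v hv v1 v' hv' v1' =>
    tr4 (hodd _ hγ) cV (h1 _ hγ) (fun v hv e => by_contra fun v1 => n ((ab_fix (inv_mem hδ) (h1 _ hγ' _ hv0)).symm.trans
      (fV _ hγ v hv v1 e hv0))) hv v1 hv' v1'
  have s1 := sq_of_trans (by rw [cV]; decide) fun v hv v1 w hw w1 => (tV v hv v1 w hw w1).imp fun _ h => h.2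
  have s2 := sq_of_trans (by rw [h4]; decide) fun v hv v1 w hw w1 => (tW v hv v1 w hw w1).imp fun _ h => h.2
  refine ⟨by omega, fun a => ?_, cV, h4, (disj hA (hodd β hβ)).symm, h1, h2, fun v hv v1 v' hv' v1' => ?_,
    fun v hv v1 v' hv' v1' => ?_, fV, fW⟩
  · obtain ⟨⟨w, v⟩, rfl, -⟩ := (isComplement'_of_card_mul_and_disjoint (card_mul β) (disj hA (hodd β hβ))).existsUnique a
    rw [mul_assoc, ← mul_assoc v.1, mul_comm' v.1, mul_assoc, s1 v v.2, mul_one, s2 w w.2]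
  · obtain ⟨γ, h, e'⟩ := tV v hv v1 v' hv' v1'
    exact ⟨γ, zpowers_le.2 hγ h, e', fun w hw => ab_fix h (fW _ hγ w0 hw0 w1 (by simp [← e]) hw)⟩
  · obtain ⟨γ, h, e'⟩ := tW v hv v1 v' hv' v1'
    exact ⟨γ, zpowers_le.2 hβ h, e', fun w hw => ab_fix h hw⟩

omit ho in
/-- Three commuting conjugates. -/
theorem conj_mem {y : MulAut A} (hβ : Odd (orderOf β)) (o1 : orderOf y = 3) (h4 : Nat.card (Vv y) = 4)
    {N : Subgroup (MulAut A)} (hy : y ∈ N) (nN : ∀ a ∈ N, β * a * β⁻¹ ∈ N) (c : ∀ a ∈ N, ∀ b ∈ N, a * b = b * a) :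
    β * y * β⁻¹ ∈ zpowers y := by_contra fun n2 => by
  have hy2 := nN y hy
  have hy3 := nN _ hy2
  have h42 := (card_vv_conj β y).trans h4
  have h43 := (card_vv_conj β _).trans h42
  have o2 : orderOf (β * y * β⁻¹) = 3 := ((MulAut.conj β).orderOf_eq y).trans o1
  have n3 : β * (β * y * β⁻¹) * β⁻¹ ∉ zpowers (β * y * β⁻¹) := by
    rintro ⟨k, hk⟩
    refine n2 ⟨k, ?_⟩
    simp only [conj_zpow] at hk
    exact mul_left_cancel (mul_right_cancel hk)
  have n4 : β * (β * y * β⁻¹) * β⁻¹ ∉ zpowers y := fun h => by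
    have h5 := ab_norm (β := β ^ 2) (x := y) (by simpa [sq, mul_assoc] using h)
    have h6 : β ∈ zpowers (β ^ 2) := mem_zpowers_pow_iff.2 (Nat.coprime_two_left.2 hβ)
    exact n2 ((mem_normalizer_iff.1 (zpowers_le.2 h5 h6) y).1 (mem_zpowers y))
  have s1 := sep hA o1 (c _ hy _ hy2) h4 h42 n2
  have s2 := sep hA o1 (c _ hy _ hy3) h4 h43 n4
  have s3 := sep hA o2 (c _ hy2 _ hy3) h42 h43 n3
  have s4 := card_mul_le s3 s2 ((disj hA (by rw [o2]; decide)).mono_right s1)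
  have s5 := card_mul (β * (β * y * β⁻¹) * β⁻¹)
  rw [h4, h42] at s4
  rw [h43] at s5
  omega

/-- `V = Fx β` is `x`-invariant and `≤ Vv x = ⊤`, so `#V = 4` (`card_mod`), `#A = 16`.  For `1 ≠ v ∈ V` the stabilizer `E_v` is
`⟨β⟩`: `ε ∈ E_v` fixes `x v`, so `V`; `β` permutes the three nontrivial cosets of `V` cyclically, so some `ε β⁻ʲ` fixes a
coset, then all of them (apply `x`), so it is trivial (`eq_of_fix`).  The orbit of `v` is a union of `⟨x⟩`-orbits of odd size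
`≤ 15`: `#E ∈ {9, 27, 45}`.  `B = ⟨x⟩ ⊔ ⟨β⟩` is abelian of order nine and normal (`normal_of_index_eq_minFac_card`; a Sylow
count for 45).  With `x` acting on `Vv β` as `β ^ i` and `γ = x β⁻ⁱ`, the elements `β^i γ^j` of `B` with a fixed point are
the powers of `β` and of `γ`; `δ β δ⁻¹ ∈ ⟨γ⟩` would give `δ² ∈ N(⟨β⟩)`, and `δ` has odd order. -/
theorem normal_of_free {x : MulAut A} (hx : x ∈ E) (hx3 : orderOf x = 3) (hf : Fx x = ⊥)
    (hc : ∀ δ ∈ E, δ * x = x * δ) (hβ : β ∈ E) (h3 : orderOf β = 3) (h1 : Fx β ≠ ⊥) :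
    ∀ δ ∈ E, δ * β * δ⁻¹ ∈ zpowers β := by
  have hodd : ∀ β ∈ E, Odd (orderOf β) := fun β hβ => ho.of_dvd_nat (orderOf_dvd_natCard E hβ)
  have hT : Vv x = ⊤ := eq_top_of_card_eq _ (by simpa [hf] using card_mul x)
  have cd : ∀ H : Subgroup A, (∀ p ∈ H, x p ∈ H) → Nat.card H = 1 ∨ Nat.card H = 4 ∨ Nat.card H = 16 := fun H hH => by
    have e1 := card_mod hA Nat.prime_three (by decide) hx3 hH (hT ▸ le_top)
    have e2 := (card_le_card_group H).trans h16
    obtain ⟨j, hj⟩ := IsPGroup.iff_card.1 (hA.to_subgroup H)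
    rw [hj] at e1 e2 ⊢
    have : j ≤ 4 := (Nat.pow_le_pow_iff_right (by norm_num)).1 (show 2 ^ j ≤ 2 ^ 4 from e2)
    interval_cases j <;> revert e1 <;> decide
  have xf : ∀ δ ∈ E, ∀ p ∈ Fx δ, x p ∈ Fx δ := fun δ hδ p => map_mem_fx (ab_self (hc δ hδ).symm)
  obtain ⟨v, hv, v1⟩ := (bot_or_exists_ne_one _).resolve_left h1
  have c1 := card_mul β
  have c2 := cd _ (xf β hβ)
  have c3 := one_lt_card_of hv v1
  have h4 : Nat.card (Vv β) = 4 := by
    rcases card_vv hA (by omega) Nat.prime_three (by decide) h3 with ⟨-, e | e⟩ | e | e | e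
    · exact e
    · rw [e] at c1; omega
    all_goals omega
  rw [h4] at c1
  have st : ∀ ε ∈ E, ε v = v → ε ∈ zpowers β := fun ε hε e => by
    have a1 := cd (Fx β ⊓ Fx ε) fun p hp => ⟨xf β hβ p hp.1, xf ε hε p hp.2⟩
    have a2 := one_lt_card_of (show v ∈ Fx β ⊓ Fx ε from ⟨hv, e⟩) v1
    have a3 : Fx β ≤ Fx ε := inf_eq_left.1 (eq_of_le_of_card_ge inf_le_left (by omega))
    obtain ⟨w, hw, w1⟩ := (bot_or_exists_ne_one (Vv β)).resolve_left fun e => by rw [e, card_bot] at h4; omega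
    have nw : w ∉ Fx β := fun h => w1 (disjoint_def.1 (disj hA (hodd β hβ)) hw h)
    obtain ⟨⟨w', v'⟩, e', -⟩ := (isComplement'_of_card_mul_and_disjoint (card_mul β)
      (disj hA (hodd β hβ))).existsUnique (ε w)
    obtain ⟨γ, hγ, e1⟩ := ab_trans hA Nat.prime_three (by decide) h3 h4 hw w1 w'.2 fun e1 => nw (by
      have : ε w ∈ Fx β := by rw [← e']; simp [e1]
      exact (ε.injective (a3 this) : ε w = w) ▸ this)
    have m : γ⁻¹ * ε ∈ E := mul_mem (inv_mem (zpowers_le.2 hβ hγ)) hε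
    have a4 : Fx β ≤ Fx (γ⁻¹ * ε) := fun p hp => by
      rw [mem_fx, MulAut.mul_apply, mem_fx.1 (a3 hp), ab_fix (inv_mem hγ) hp]
    have a5 := g1_half a4 (eq_of_fix hA (hodd _ m) (a4 (by
      rw [MulAut.mul_apply, ← e', map_mul, ← e1, MulAut.inv_apply_self, ab_fix (inv_mem hγ) v'.2, inv_mul_cancel_left]
      exact v'.2))) nw
    have a6 := cd _ (xf _ m)
    have a7 : Fx (γ⁻¹ * ε) = ⊤ := eq_top_of_le_card _ (by omega)
    exact inv_mul_eq_one.1 (MulEquiv.ext fun p => a7.ge (mem_top p) : γ⁻¹ * ε = 1) ▸ hγ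
  have cE : Nat.card E ≤ 3 * 16 := by
    rw [← (MulAction.stabilizer E v).card_mul_index, MulAction.index_stabilizer]
    refine Nat.mul_le_mul ?_ ((Set.ncard_le_card _).trans h16)
    rw [← card_map_of_injective E.subtype_injective, ← h3, ← Nat.card_zpowers]
    refine card_le_of_le ?_
    rintro _ ⟨ε, h, rfl⟩
    exact st ε ε.2 h
  have l : zpowers x ⊔ zpowers β ≤ E := sup_le (zpowers_le.2 hx) (zpowers_le.2 hβ)
  have c : ∀ a ∈ zpowers x ⊔ zpowers β, ∀ b ∈ zpowers x ⊔ zpowers β, a * b = b * a := fun a ha b hb =>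
    (mem_centralizer_singleton_iff.1 ((sup_le (zpowers_le.2 (mem_centralizer_singleton_iff.2 (hc a (l ha)).symm))
      (zpowers_le.2 (mem_centralizer_singleton_iff.2 (mem_centralizer_singleton_iff.1 ((sup_le
        (zpowers_le.2 (mem_centralizer_singleton_iff.2 (hc β hβ).symm))
        (zpowers_le.2 (mem_centralizer_singleton_iff.2 rfl)) :) ha)).symm)) :) hb)).symm
  have : Fact (Nat.Prime 3) := ⟨Nat.prime_three⟩
  obtain ⟨n, hn⟩ := IsPGroup.iff_card.1 ((IsPGroup.of_card (p := 3) (n := 1) ((Nat.card_zpowers x).trans hx3)).to_sup_of_normal_left'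
    (IsPGroup.of_card (p := 3) (n := 1) ((Nat.card_zpowers β).trans h3)) (zpowers_le.2 (ab_norm (ab_self (hc β hβ)))))
  have b1 := g1_half (le_sup_right : _ ≤ zpowers x ⊔ zpowers β) (mem_sup_left (mem_zpowers x))
    fun h => v1 (mem_bot.1 (hf.le (ab_fix h hv)))
  have b2 := Coprime.card_mul_relIndex l
  have b3 := Sylow.card_quotient_normalizer_modEq_card_quotient (H := (zpowers x ⊔ zpowers β).subgroupOf E)
    ((Nat.card_congr (subgroupOfEquivOfLe l).toEquiv).trans hn)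
  have b4 := relIndex_mul_index (le_normalizer (H := (zpowers x ⊔ zpowers β).subgroupOf E))
  have b5 := ho.of_dvd_nat ((zpowers x ⊔ zpowers β).subgroupOf E).index_dvd_card
  change relIndex _ _ ≡ index _ [MOD 3] at b3
  change _ * index _ = _ at b2
  have b6 : 9 ≤ Nat.card ↥(zpowers x ⊔ zpowers β) := by
    rw [Nat.card_zpowers, h3] at b1
    rw [hn] at b1 ⊢
    rcases n with _ | _ | n <;> omega
  have b7 : (normalizer ((zpowers x ⊔ zpowers β).subgroupOf E : Set E)).index = 1 := by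
    have := Nat.mul_le_mul_right ((zpowers x ⊔ zpowers β).subgroupOf E).index b6
    generalize (zpowers x ⊔ zpowers β).subgroupOf E = H at *
    generalize H.relIndex (normalizer (H : Set E)) = k at *
    generalize (normalizer (H : Set E)).index = i at *
    generalize H.index = m at *
    have h5 : m ≤ 5 := by omega
    have hk : k ≤ m := Nat.le_of_dvd b5.pos ⟨i, b4.symm⟩
    rw [Nat.odd_iff] at b5
    rw [Nat.ModEq] at b3
    interval_cases m <;> interval_cases k <;> omega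
  have b8 := normalizer_eq_top_iff.1 (index_eq_one.1 b7)
  exact fun δ hδ => conj_mem hA h16 (hodd δ hδ) h3 h4 (mem_sup_right (mem_zpowers β))
    (fun a ha => b8.conj_mem ⟨a, l ha⟩ ha ⟨δ, hδ⟩) c

/-- Not free: `1 ≠ β ∈ E` fixes `v ≠ 1`; a power of prime order has order three and `#(Vv β) = 4` (`card_vv`, `card_mul`).
`x` from `exists_normal` has order `3` or `5` and is central in `E` (`comm_of_odd`).  If `Fx x ≠ ⊥`: `of_pair` for `x`.  Else `Fx β`
is `x`-invariant of order `2` or `4`, `≡ 1 mod orderOf x` (`card_mod`), so `orderOf x = 3`: `normal_of_free`, `map_mem_fx`,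
`map_mem_vv`, `of_pair`. -/
theorem quot_cases (h7 : ∀ β ∈ E, orderOf β ≠ 7) :
    (∃ Y : Subgroup A, Y.index ≤ 4 ∧ ∀ β ∈ E, ∀ w ∈ Y, β w = w) ∨
      (∀ β ∈ E, ∀ v ≠ (1 : A), β v = v → β = 1) ∨ ∃ V W, S9 E V W := by
  have hodd : ∀ β ∈ E, Odd (orderOf β) := fun β hβ => ho.of_dvd_nat (orderOf_dvd_natCard E hβ)
  by_cases hf : ∀ β ∈ E, ∀ v ≠ (1 : A), β v = v → β = 1
  · exact .inr (.inl hf)
  push Not at hf
  obtain ⟨β, hβ, v, v1, e, β1⟩ := hf
  refine Or.imp_right .inr ?_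
  have key : ∀ b ∈ E, (orderOf b).Prime → Fx b ≠ ⊥ → orderOf b = 3 ∧ Nat.card (Vv b) = 4 := fun b hb hq n => by
    have h1 := card_mul b
    have h2 := (one_lt_card_iff_ne_bot _).2 n
    have h3 := h7 b hb
    rcases card_vv hA (by omega) hq (fun h => absurd (h ▸ hodd b hb) (by decide)) rfl with
      ⟨h, e | e⟩ | ⟨h, e⟩ | ⟨h, e⟩ | ⟨h, e⟩
    · exact ⟨h, e⟩
    all_goals rw [e] at h1; omega
  have hq := Nat.minFac_prime (orderOf_eq_one_iff.not.2 β1)
  obtain ⟨b, hb, o⟩ := Core.exists_mem_orderOf_eq_prime (H := zpowers β) hq (Nat.card_zpowers β ▸ Nat.minFac_dvd _)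
  have hv : v ∈ Fx b := ab_fix hb e
  have nb : Fx b ≠ ⊥ := fun h => v1 (mem_bot.1 (h.le hv))
  replace hb := zpowers_le.2 hβ hb
  obtain ⟨b3, b4⟩ := key b hb (o ▸ hq) nb
  obtain ⟨x, hx, px, hn⟩ := exists_normal hA (by omega) ho fun h => β1 (mem_bot.1 (h.le hβ))
  by_cases nx : Fx x = ⊥
  swap
  · obtain ⟨x3, x4⟩ := key x hx px nx
    exact of_pair hA h16 ho hx x3 x4 (fun δ hδ v => map_mem_fx (hn δ hδ)) fun δ hδ v => map_mem_vv (hn δ hδ)
  have x2 : orderOf x ≠ 2 := fun h => absurd (h ▸ hodd x hx) (by decide)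
  have x35 : orderOf x = 3 ∨ orderOf x = 5 := by
    have h1 := card_vv hA (by omega) px x2 rfl
    have h2 := (card_le_card_group (Vv x)).trans h16
    have h3 := h7 x hx
    omega
  have hc : ∀ δ ∈ E, δ * x = x * δ := fun δ hδ => comm_of_odd x35 (hodd δ hδ) (hn δ hδ)
  have x3 : orderOf x = 3 := x35.resolve_right fun h => by
    have h1 := card_mod hA px x2 rfl (H := Fx b) (fun p => map_mem_fx (ab_self (hc b hb).symm))
      (eq_top_of_card_eq (Vv x) (by simpa [nx] using card_mul x) ▸ le_top)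
    have h2 := card_mul b
    have h3 := one_lt_card_of hv v1
    rw [h, Nat.ModEq] at h1
    rw [b4] at h2
    omega
  have := normal_of_free hA h16 ho hx x3 nx hc hb b3 nb
  exact of_pair hA h16 ho hb b3 b4 (fun δ hδ v => map_mem_fx (this δ hδ)) fun δ hδ v => map_mem_vv (this δ hδ)

end Cfsg.Lib.CZ
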